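import Cfsg.Agent.Lib.SLnPres.Model
import Cfsg.Agent.Lib.ShortPres.Main

/-!
Presentations of `SL_{k+4}(F)` from one of the alternating group on `k + 4` points, with five generators
and seventeen further relations.
-/

set_option autoImplicit false
set_option linter.unusedSectionVars false

namespace CfsgLib.SLnPres

open Polynomial CfsgLib.SL2Pres CfsgLib.SL3Pres
open CfsgLib.ShortPres (HasPres)
open scoped MatrixGroups

universe u

variable {F : Type u} [Field F] [Finite F]

open Classical in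
/-- Two words in `u, h, w` whose values generate `SL₂(F)`. -/
noncomputable def tauWords (ω : Fˣ) : List (FreeGroup (Fin 3)) :=
  if (ω : F) ^ 2 = 1 then [FreeGroup.of 0, FreeGroup.of 2] else [FreeGroup.of 1, FreeGroup.of 0 * FreeGroup.of 2]

theorem eq_top_of_tauWords {ω : Fˣ} (hω : ∀ x : Fˣ, x ∈ Subgroup.zpowers ω) {M : Subgroup SL(2, F)}
    (h : ∀ w ∈ tauWords ω, FreeGroup.lift (fS ω) w ∈ M) : M = ⊤ := by
  obtain ⟨p, hp⟩ := CharP.exists F
  have : Fact p.Prime := ⟨CharP.char_is_prime F p⟩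
  let _ : Algebra (ZMod p) F := ZMod.algebra F p
  suffices hh : xS (1 : F) ∈ M ∧ dS ω ∈ M ∧ wS ∈ M by
    rw [eq_top_iff, ← closure_fS p hω, Subgroup.closure_le]
    rintro _ ⟨i, rfl⟩
    fin_cases i
    exacts [hh.1, hh.2.1, hh.2.2]
  by_cases hq : (ω : F) ^ 2 = 1
  · simp only [tauWords, if_pos hq, List.forall_mem_cons, List.not_mem_nil, false_implies, implies_true, and_true,
      FreeGroup.lift_apply_of] at h
    refine ⟨h.1, ?_, h.2⟩
    rcases sq_eq_one_iff.1 hq with e | e
    · rw [show ω = 1 from Units.ext e, map_one]; exact one_mem M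
    · rw [show ω = -1 from Units.ext e, ← wS_mul_wS]; exact mul_mem h.2 h.2
  · simp only [tauWords, if_neg hq, List.forall_mem_cons, List.not_mem_nil, false_implies, implies_true, and_true,
      map_mul, FreeGroup.lift_apply_of] at h
    obtain ⟨hd, hz⟩ : dS ω ∈ M ∧ xS (1 : F) * wS ∈ M := h
    set g : F := (ω : F) ^ 2 with hg
    have hgi : (((ω⁻¹ : Fˣ) : F)) ^ 2 = g⁻¹ := by rw [Units.val_inv_eq_inv_val, inv_pow]
    have hc : xS (g⁻¹ - 1) ∈ M := by
      have h1 : dS ω * (xS 1 * wS) * (dS ω)⁻¹ * (xS 1 * wS)⁻¹ ∈ M :=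
        mul_mem (mul_mem (mul_mem hd hz) (inv_mem hd)) (inv_mem hz)
      have e : dS ω * (xS 1 * wS) * (dS ω)⁻¹ * (xS 1 * wS)⁻¹ = (dS ω * dS ω) * xS (g⁻¹ - 1) := by
        have hw : wS * (dS ω)⁻¹ * wS⁻¹ = dS ω := by rw [← map_inv, wS_dS, inv_inv]
        have hx := dS_xS ω⁻¹ (1 : F)
        rw [map_inv, inv_inv, mul_one, hgi] at hx
        rw [sub_eq_add_neg, xS_add, SL3Pres.xS_neg, ← hx]
        calc _ = dS ω * xS 1 * (wS * (dS ω)⁻¹ * wS⁻¹) * (xS 1)⁻¹ := by group
          _ = _ := by rw [hw]; group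
      rw [e] at h1
      have h2 := mul_mem (inv_mem (mul_mem hd hd)) h1
      rwa [← mul_assoc, inv_mul_cancel, one_mul] at h2
    have hc0 : g⁻¹ - 1 ≠ 0 := by rwa [sub_ne_zero, ne_eq, inv_eq_one]
    let A : AddSubmonoid F :=
      { carrier := {a | xS ((g⁻¹ - 1) * a) ∈ M}
        zero_mem' := by
          show xS ((g⁻¹ - 1) * (0 : F)) ∈ M
          rw [mul_zero, SL3Pres.xS_zero]; exact one_mem M
        add_mem' := fun {a b} ha hb => by
          show xS ((g⁻¹ - 1) * (a + b)) ∈ M
          rw [mul_add, xS_add]; exact mul_mem ha hb }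
    have hx : xS (1 : F) ∈ M := by
      have h1 := mem_of_sq_closed hω A (show xS ((g⁻¹ - 1) * 1) ∈ M by rwa [mul_one]) (fun a ha => by
        show xS ((g⁻¹ - 1) * ((ω : F) ^ 2 * a)) ∈ M
        rw [mul_left_comm, ← dS_xS]; exact mul_mem (mul_mem hd ha) (inv_mem hd)) (g⁻¹ - 1)⁻¹
      have h1' : xS ((g⁻¹ - 1) * (g⁻¹ - 1)⁻¹) ∈ M := h1
      rwa [mul_inv_cancel₀ hc0] at h1'
    exact ⟨hx, hd, by simpa using mul_mem (inv_mem hx) hz⟩

theorem lift_lift {α β G : Type*} [Group G] (f : β → G) (m : α → FreeGroup β) (r : FreeGroup α) :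
    FreeGroup.lift f (FreeGroup.lift m r) = FreeGroup.lift (FreeGroup.lift f ∘ m) r := by
  have h : (FreeGroup.lift f).comp (FreeGroup.lift m) = FreeGroup.lift (FreeGroup.lift f ∘ m) :=
    FreeGroup.ext_hom _ _ fun a => by simp
  exact DFunLike.congr_fun h r

set_option maxHeartbeats 1200000 in
/-- The five relation families. -/
theorem presentation (k : ℕ) {r : ℕ} (hA : HasPres (alternatingGroup (Fin (k + 4))) 2 r) :
    HasPres SL(k + 4, F) 5 (14 + r + 1 + if k = 0 then 0 else 2) := by
  classical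
  obtain ⟨ω, hω⟩ := IsCyclic.exists_generator (α := Fˣ)
  obtain ⟨R5, hR5m, hR5S, hR5G⟩ := isRel5 hω
  obtain ⟨Ra, hRac, ⟨e⟩⟩ := hA
  set A := PresentedGroup.mk (↑Ra : Set (FreeGroup (Fin 2)))
  let θ : FreeGroup (Fin 2) →* alternatingGroup (Fin (k + 4)) := e.toMonoidHom.comp A
  have hθ : Function.Surjective θ := e.surjective.comp (PresentedGroup.mk_surjective _)
  obtain ⟨wc, hwc⟩ := hθ c012
  obtain ⟨wg, hwg⟩ := hθ flipAlt
  obtain ⟨wt, hwt⟩ := hθ cycAlt
  obtain ⟨ws, hws⟩ := hθ sigma0
  let η : FreeGroup (Fin 2) →* FreeGroup (Fin 5) := FreeGroup.map (Fin.natAdd 3)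
  let m : Fin 5 → FreeGroup (Fin 5) := ![FreeGroup.of 0, FreeGroup.of 1, FreeGroup.of 2, η wc, η wg]
  let d : FreeGroup (Fin 5) := FreeGroup.of 0 * (η ws * FreeGroup.of 0 * (η ws)⁻¹) *
    (η ws * FreeGroup.of 0 * (η ws)⁻¹ * FreeGroup.of 0)⁻¹
  let T : List (FreeGroup (Fin 5)) := if k = 0 then [] else (tauWords ω).map fun w =>
    η wt * FreeGroup.map (Fin.castLE (by norm_num)) w *
      (FreeGroup.map (Fin.castLE (by norm_num)) w * η wt)⁻¹
  set L := R5.map (FreeGroup.lift m) ++ Ra.toList.map η ++ d :: T with hL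
  refine ⟨L.toFinset, (List.toFinset_card_le _).trans ?_, ?_⟩
  · have hT : T.length ≤ if k = 0 then 0 else 2 := by
      by_cases hk : k = 0
      · simp [T, hk]
      · simp only [T, tauWords, hk, if_false, List.length_map]
        split <;> simp
    simp only [hL, List.length_append, List.length_map, List.length_cons, Finset.length_toList]
    omega
  rw [List.coe_toFinset]
  -- the model
  let φM : SL(3, F) →* SL(k + 4, F) := model3 k
  let fa : Fin 2 → SL(k + 4, F) := fun i => pm (θ (FreeGroup.of i))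
  let fM : Fin 5 → SL(k + 4, F) := Fin.append (φM ∘ emb ∘ fS ω) fa
  have hMη : ∀ w, FreeGroup.lift fM (η w) = pm (θ w) := by
    have h : (FreeGroup.lift fM).comp η = (pm.comp θ) :=
      FreeGroup.ext_hom _ _ fun i => by simp [η, fM, fa, Fin.append_right]
    exact fun w => DFunLike.congr_fun h w
  have hM3 : ∀ i : Fin 3, fM (Fin.castLE (by norm_num) i) = φM (emb (fS ω i)) := fun i =>
    Fin.append_left (φM ∘ emb ∘ fS ω) fa i
  have hrel : ∀ x ∈ {x | x ∈ L}, FreeGroup.lift fM x = 1 := by
    intro x hx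
    simp only [Set.mem_ofPred_eq, hL, List.mem_append, List.mem_map, List.mem_cons] at hx
    rcases hx with (⟨x, hx, rfl⟩ | ⟨x, hx, rfl⟩) | rfl | hx
    · rw [lift_lift]
      have hm : FreeGroup.lift fM ∘ m = f5 ω φM (pm flipAlt) := by
        funext i
        fin_cases i
        · show FreeGroup.lift fM (FreeGroup.of 0) = φM (emb (xS 1))
          rw [FreeGroup.lift_apply_of]; exact hM3 0
        · show FreeGroup.lift fM (FreeGroup.of 1) = φM (emb (dS ω))
          rw [FreeGroup.lift_apply_of]; exact hM3 1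
        · show FreeGroup.lift fM (FreeGroup.of 2) = φM (emb wS)
          rw [FreeGroup.lift_apply_of]; exact hM3 2
        · show FreeGroup.lift fM (η wc) = φM cyc
          rw [hMη, hwc]; exact model3_cyc.symm
        · show FreeGroup.lift fM (η wg) = pm flipAlt
          rw [hMη, hwg]
      rw [hm]; exact hR5S _ φM _ model3_flips x hx
    · rw [hMη]
      show pm (e (PresentedGroup.mk _ x)) = 1
      rw [PresentedGroup.one_of_mem (Finset.mem_toList.1 hx), map_one, map_one]
    · simp only [d, map_mul, map_inv, FreeGroup.lift_apply_of, hMη, hws, mul_inv_eq_one]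
      rw [show fM 0 = φM (emb (xS 1)) from hM3 0]
      exact model3_disj.eq
    · by_cases hk : k = 0
      · simp [T, hk] at hx
      simp only [T, hk, if_false, List.mem_map] at hx
      obtain ⟨w, -, rfl⟩ := hx
      simp only [map_mul, map_inv, hMη, hwt, mul_inv_eq_one]
      have h : (FreeGroup.lift fM).comp (FreeGroup.map (Fin.castLE (by norm_num : 3 ≤ 5))) =
          (φM.comp emb).comp (FreeGroup.lift (fS ω)) := FreeGroup.ext_hom _ _ fun i => by
        simpa using hM3 i
      rw [show FreeGroup.lift fM (FreeGroup.map _ w) = _ from DFunLike.congr_fun h w]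
      exact (model3_fix _).eq
  -- the presented group
  set P := PresentedGroup.of (rels := {x | x ∈ L}) with hP
  have hl : ∀ x ∈ L, FreeGroup.lift P x = 1 := fun x hx => lift_of_eq_one hx
  have hAlt : ∀ x ∈ (↑Ra : Set (FreeGroup (Fin 2))), FreeGroup.lift (P ∘ Fin.natAdd 3) x = 1 := by
    intro x hx
    rw [← hl (η x) (List.mem_append_left _ (List.mem_append_right _
      (List.mem_map.2 ⟨x, Finset.mem_toList.2 hx, rfl⟩)))]
    exact DFunLike.congr_fun (FreeGroup.ext_hom (FreeGroup.lift (P ∘ Fin.natAdd 3))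
      ((FreeGroup.lift P).comp η) fun i => by simp [η]) x
  let ρ : alternatingGroup (Fin (k + 4)) →* PresentedGroup {x | x ∈ L} :=
    (PresentedGroup.toGroup hAlt).comp e.symm.toMonoidHom
  have hρ : ∀ w, ρ (θ w) = FreeGroup.lift P (η w) := by
    intro w
    show PresentedGroup.toGroup hAlt (e.symm (e (A w))) = _
    rw [e.symm_apply_apply]
    exact DFunLike.congr_fun (FreeGroup.ext_hom ((PresentedGroup.toGroup hAlt).comp A)
      ((FreeGroup.lift P).comp η) fun i => by
        show PresentedGroup.toGroup hAlt (PresentedGroup.of i) = _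
        rw [PresentedGroup.toGroup.of]; simp [η]) w
  let f : Fin 5 → PresentedGroup {x | x ∈ L} := FreeGroup.lift P ∘ m
  have f3c : f 3 = ρ c012 := by rw [← hwc, hρ]; rfl
  have f4g : f 4 = ρ flipAlt := by rw [← hwg, hρ]; rfl
  have hc3 : c012 * c012 * c012 = (1 : alternatingGroup (Fin (k + 4))) := by
    refine Subtype.ext ?_
    show cyc3 (0 : Fin (k + 4)) 1 2 * cyc3 0 1 2 * cyc3 0 1 2 = 1
    refine Equiv.ext fun x => ?_
    simp only [Equiv.Perm.mul_apply, Equiv.Perm.one_apply]
    by_cases h0 : x = 0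
    · subst h0
      rw [cyc3_apply_left zero_ne_one' zero_ne_two', cyc3_apply_mid one_ne_two' zero_ne_two', cyc3_apply_right]
    by_cases h1 : x = 1
    · subst h1
      rw [cyc3_apply_mid one_ne_two' zero_ne_two', cyc3_apply_right, cyc3_apply_left zero_ne_one' zero_ne_two']
    by_cases h2 : x = 2
    · subst h2
      rw [cyc3_apply_right, cyc3_apply_left zero_ne_one' zero_ne_two', cyc3_apply_mid one_ne_two' zero_ne_two']
    rw [cyc3_apply_other h0 h1 h2, cyc3_apply_other h0 h1 h2, cyc3_apply_other h0 h1 h2]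
  have hg2 : flipAlt * flipAlt = (1 : alternatingGroup (Fin (k + 4))) := by
    refine Subtype.ext ?_
    show Equiv.swap (0 : Fin (k + 4)) 1 * Equiv.swap 2 3 * (Equiv.swap 0 1 * Equiv.swap 2 3) = 1
    have hcm : Commute (Equiv.swap (0 : Fin (k + 4)) 1) (Equiv.swap 2 3) := by
      refine Equiv.Perm.Disjoint.commute fun x => ?_
      by_cases hx : x = 0 ∨ x = 1
      · right
        rcases hx with rfl | rfl
        · exact Equiv.swap_apply_of_ne_of_ne zero_ne_two' zero_ne_three'
        · exact Equiv.swap_apply_of_ne_of_ne one_ne_two' one_ne_three'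
      · left
        simp only [not_or] at hx
        exact Equiv.swap_apply_of_ne_of_ne hx.1 hx.2
    rw [hcm.symm.mul_mul_mul_comm, Equiv.swap_mul_self, one_mul, Equiv.swap_mul_self]
  obtain ⟨φ3, hφ3, hflip⟩ := hR5G _ f
    (by rw [f3c, ← map_mul, ← map_mul, hc3, map_one])
    (by rw [f4g, ← map_mul, hg2, map_one])
    (fun x hx => by
      rw [← lift_lift]
      exact hl _ (by simp only [hL, List.mem_append, List.mem_map]; exact Or.inl (Or.inl ⟨x, hx, rfl⟩)))
  rw [f4g] at hflip
  have hU : P 0 = φ3 (emb (xS 1)) := by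
    refine Eq.trans ?_ (hφ3 0).symm
    exact (FreeGroup.lift_apply_of (f := P) (x := 0)).symm
  have hd := hl d (by simp [hL])
  simp only [d, map_mul, map_inv, FreeGroup.lift_apply_of, ← hρ, hws, mul_inv_eq_one, hU] at hd
  have hfix : ∀ z, Commute (ρ cycAlt) (φ3 (emb z)) := by
    by_cases hk : k = 0
    · subst hk
      intro z
      rw [cycAlt_zero, map_one]; exact Commute.one_left _
    have h := eq_top_of_tauWords hω (M := (Subgroup.centralizer {ρ cycAlt}).comap (φ3.comp emb)) (fun w hw => by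
      rw [Subgroup.mem_comap, Subgroup.mem_centralizer_singleton_iff]
      have h := hl (η wt * FreeGroup.map (Fin.castLE (by norm_num : 3 ≤ 5)) w *
        (FreeGroup.map (Fin.castLE (by norm_num : 3 ≤ 5)) w * η wt)⁻¹) (by
          simp only [hL, List.mem_append, List.mem_cons]
          refine Or.inr (Or.inr ?_)
          simp only [T, hk, if_false, List.mem_map]
          exact ⟨w, hw, rfl⟩)
      simp only [map_mul, map_inv, ← hρ, hwt, mul_inv_eq_one] at h
      have e3 : (FreeGroup.lift P).comp (FreeGroup.map (Fin.castLE (by norm_num : 3 ≤ 5))) =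
          (φ3.comp emb).comp (FreeGroup.lift (fS ω)) := FreeGroup.ext_hom _ _ fun i => by
        fin_cases i <;> simp only [MonoidHom.comp_apply, FreeGroup.map.of, FreeGroup.lift_apply_of]
        · exact hU
        · exact (FreeGroup.lift_apply_of (f := P) (x := 1)).symm.trans (hφ3 1).symm
        · exact (FreeGroup.lift_apply_of (f := P) (x := 2)).symm.trans (hφ3 2).symm
      rw [show FreeGroup.lift P (FreeGroup.map _ w) = _ from DFunLike.congr_fun e3 w] at h
      exact h.symm)
    intro z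
    exact (Subgroup.mem_centralizer_singleton_iff.1
      (h ▸ Subgroup.mem_top z : z ∈ Subgroup.comap _ _)).symm
  have hc : φ3 cyc = ρ c012 := (hφ3 3).trans f3c
  let S : Setup F k (PresentedGroup {x | x ∈ L}) :=
    { φ := φ3.comp tw
      ρ := ρ
      rot := fun a b t => by
        show ρ c012 * φ3 (tw (e3 a b t)) * (ρ c012)⁻¹ = φ3 (tw (e3 (a + 1) (b + 1) t))
        rw [← hc, ← pm_rot3_e3, ← tw_cyc]
        simp only [map_mul, map_inv, tw_tw]
      c_mem := ⟨tw cyc, show φ3 (tw (tw cyc)) = _ by rw [tw_tw, hc]⟩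
      flip := fun t => by
        simp only [MonoidHom.comp_apply, tw_e01, tw_e10]
        exact hflip (-t)
      fix := fun t => by
        simp only [MonoidHom.comp_apply, tw_e01, tw_e10]
        exact ⟨hfix _, hfix _⟩
      disj := by
        simp only [MonoidHom.comp_apply, tw_e01]
        rw [SL3Pres.xS_neg, map_inv, map_inv, ← conj_inv]
        exact Commute.inv_inv hd }
  have hgen : S.φ.range ⊔ S.ρ.range = ⊤ := by
    rw [eq_top_iff, ← PresentedGroup.closure_range_of, Subgroup.closure_le]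
    rintro _ ⟨i, rfl⟩
    have hin : ∀ {j : Fin 4} {x : PresentedGroup {x | x ∈ L}}, x = φ3 (f3 ω j) → x ∈ S.φ.range ⊔ S.ρ.range :=
      fun {j x} h => Subgroup.mem_sup_left ⟨tw (f3 ω j), by
        show φ3 (tw (tw (f3 ω j))) = x
        rw [tw_tw, h]⟩
    have hia : ∀ j : Fin 2, P (Fin.natAdd 3 j) ∈ S.φ.range ⊔ S.ρ.range := fun j =>
      Subgroup.mem_sup_right ⟨θ (FreeGroup.of j), by
        show ρ _ = _
        rw [hρ]; simp [η]⟩
    fin_cases i
    · exact hin (j := 0) hU
    · exact hin (j := 1) ((FreeGroup.lift_apply_of (f := P) (x := 1)).symm.trans (hφ3 1).symm)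
    · exact hin (j := 2) ((FreeGroup.lift_apply_of (f := P) (x := 2)).symm.trans (hφ3 2).symm)
    · exact hia 0
    · exact hia 1
  obtain ⟨hfin, hcard⟩ := S.finite_and_card_le hgen
  let ψ := PresentedGroup.toGroup (rels := {x | x ∈ L}) (f := fM) hrel
  have hψ : ∀ i, ψ (P i) = fM i := fun i => PresentedGroup.toGroup.of (h := hrel)
  have hψP : ∀ w, ψ (FreeGroup.lift P w) = FreeGroup.lift fM w := fun w =>
    DFunLike.congr_fun (FreeGroup.ext_hom (ψ.comp (FreeGroup.lift P)) (FreeGroup.lift fM) fun i => by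
      simpa using hψ i) w
  have hsurj : Function.Surjective ψ := by
    rw [← MonoidHom.range_eq_top, eq_top_iff, ← closure_model]
    refine sup_le ?_ ?_
    · have h : ψ.range.comap (model3 k) = ⊤ := by
        rw [eq_top_iff, ← closure_emb_cyc (F := F), Subgroup.closure_le]
        rintro z (⟨s, rfl⟩ | rfl)
        · obtain ⟨p, hp⟩ := CharP.exists F
          have : Fact p.Prime := ⟨CharP.char_is_prime F p⟩
          let _ : Algebra (ZMod p) F := ZMod.algebra F p
          have : s ∈ ψ.range.comap ((model3 k).comp emb) := by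
            refine ((closure_fS p hω).ge.trans ((Subgroup.closure_le _).2 ?_)) (Subgroup.mem_top s)
            rintro _ ⟨i, rfl⟩
            exact ⟨P (Fin.castLE (by norm_num) i), (hψ _).trans (hM3 i)⟩
          exact this
        · exact ⟨FreeGroup.lift P (η wc), by rw [hψP, hMη, hwc]; exact model3_cyc.symm⟩
      rintro _ ⟨z, rfl⟩
      exact (h ▸ Subgroup.mem_top z : z ∈ Subgroup.comap _ _)
    · rintro _ ⟨σ, rfl⟩
      obtain ⟨w, rfl⟩ := hθ σ
      exact ⟨FreeGroup.lift P (η w), by rw [hψP, hMη]⟩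
  exact ⟨MulEquiv.ofBijective ψ (hsurj.bijective_of_nat_card_le hcard)⟩

/-- One more generator costs one more relation. -/
theorem hasPres_succ {Γ : Type*} [Group Γ] {k r : ℕ} (h : HasPres Γ k r) : HasPres Γ (k + 1) (r + 1) := by
  classical
  obtain ⟨R, hR, ⟨e⟩⟩ := h
  let η : FreeGroup (Fin k) →* FreeGroup (Fin (k + 1)) := FreeGroup.map Fin.castSucc
  let π : FreeGroup (Fin (k + 1)) →* FreeGroup (Fin k) := FreeGroup.lift (Fin.snoc FreeGroup.of 1)
  have hπη : ∀ x, π (η x) = x := fun x => DFunLike.congr_fun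
    (FreeGroup.ext_hom (π.comp η) (MonoidHom.id _) fun i => by simp [π, η, Fin.snoc_castSucc]) x
  refine ⟨insert (FreeGroup.of (Fin.last k)) (R.image η), (Finset.card_insert_le _ _).trans
    (Nat.succ_le_succ (Finset.card_image_le.trans hR)), ?_⟩
  set R' : Set (FreeGroup (Fin (k + 1))) := ↑(insert (FreeGroup.of (Fin.last k)) (R.image η)) with hR'
  have h1 : ∀ x ∈ R', FreeGroup.lift (Fin.snoc (PresentedGroup.of (rels := (↑R : Set (FreeGroup (Fin k))))) 1) x = 1 := by
    intro x hx
    simp only [hR', Finset.coe_insert, Finset.coe_image, Set.mem_insert_iff, Set.mem_image] at hx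
    rcases hx with rfl | ⟨x, hx, rfl⟩
    · simp
    · have : (FreeGroup.lift (Fin.snoc (PresentedGroup.of (rels := (↑R : Set (FreeGroup (Fin k))))) 1)).comp η =
          FreeGroup.lift PresentedGroup.of := FreeGroup.ext_hom _ _ fun i => by simp [η, Fin.snoc_castSucc]
      exact (DFunLike.congr_fun this x).trans (lift_of_eq_one hx)
  have h2 : ∀ x ∈ (↑R : Set (FreeGroup (Fin k))),
      FreeGroup.lift (PresentedGroup.of (rels := R') ∘ Fin.castSucc) x = 1 := by
    intro x hx
    have : FreeGroup.lift (PresentedGroup.of (rels := R') ∘ Fin.castSucc) =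
        (FreeGroup.lift (PresentedGroup.of (rels := R'))).comp η := FreeGroup.ext_hom _ _ fun i => by simp [η]
    rw [this]
    exact lift_of_eq_one (by simp [hR']; exact Or.inr ⟨x, hx, rfl⟩)
  refine ⟨(MonoidHom.toMulEquiv (PresentedGroup.toGroup h1) (PresentedGroup.toGroup h2) ?_ ?_).trans e⟩
  · refine PresentedGroup.ext fun i => ?_
    refine Fin.lastCases ?_ (fun i => ?_) i
    · simp only [MonoidHom.comp_apply, PresentedGroup.toGroup.of, Fin.snoc_last, map_one, MonoidHom.id_apply]
      exact (PresentedGroup.one_of_mem (by simp [hR'])).symm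
    · simp [Fin.snoc_castSucc]
  · exact PresentedGroup.ext fun i => by simp [Fin.snoc_castSucc]

end CfsgLib.SLnPres
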