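import Cfsg.Agent.Lib.SLnPres.SL3Rel

/-!
The involution that exchanges the two root groups of `SL₂(F)` inside a group containing an image of `SL₃(F)`:
at most fourteen relators on five generators.
-/

set_option autoImplicit false
set_option linter.unusedSectionVars false

namespace CfsgLib.SLnPres

open Polynomial CfsgLib.SL2Pres CfsgLib.SL3Pres
open scoped MatrixGroups commutatorElement

universe u v

variable {F : Type u} [Field F] [Finite F]

/-- `g` exchanges the images of the two root groups of the corner `SL₂(F)`. -/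
def Flips {G : Type*} [Group G] (φ : SL(3, F) →* G) (g : G) : Prop :=
  ∀ t, g * φ (emb (xS t)) * g⁻¹ = φ (emb (yS t)) ∧ g * φ (emb (yS t)) * g⁻¹ = φ (emb (xS t))

/-- Conjugation of `SL₂(F)` by `[[0,1],[1,0]]`. -/
def theta : SL(2, F) →* SL(2, F) where
  toFun z := ⟨!![z.1 1 1, z.1 1 0; z.1 0 1, z.1 0 0], by
    have h := z.2
    rw [Matrix.det_fin_two] at h
    rw [Matrix.det_fin_two_of]; linear_combination h⟩
  map_one' := by
    refine Subtype.ext ?_
    show !![(1 : Matrix (Fin 2) (Fin 2) F) 1 1, (1 : Matrix (Fin 2) (Fin 2) F) 1 0;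
      (1 : Matrix (Fin 2) (Fin 2) F) 0 1, (1 : Matrix (Fin 2) (Fin 2) F) 0 0] = 1
    ext i j; fin_cases i <;> fin_cases j <;> simp
  map_mul' a b := by
    refine Subtype.ext ?_
    show !![(a.1 * b.1) 1 1, (a.1 * b.1) 1 0; (a.1 * b.1) 0 1, (a.1 * b.1) 0 0] =
      !![a.1 1 1, a.1 1 0; a.1 0 1, a.1 0 0] * !![b.1 1 1, b.1 1 0; b.1 0 1, b.1 0 0]
    ext i j; fin_cases i <;> fin_cases j <;>
      simp [Matrix.mul_apply, Fin.sum_univ_two] <;> ring

theorem coe_theta (z : SL(2, F)) :
    (theta z : Matrix (Fin 2) (Fin 2) F) = !![z.1 1 1, z.1 1 0; z.1 0 1, z.1 0 0] := rfl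

theorem theta_xS (t : F) : theta (xS t) = yS t := by
  apply Matrix.SpecialLinearGroup.ext; intro i j
  fin_cases i <;> fin_cases j <;> simp [coe_theta, coe_xS, coe_yS]

theorem theta_yS (t : F) : theta (yS t) = xS t := by
  apply Matrix.SpecialLinearGroup.ext; intro i j
  fin_cases i <;> fin_cases j <;> simp [coe_theta, coe_xS, coe_yS]

theorem theta_dS (s : Fˣ) : theta (dS s) = dS s⁻¹ := by
  apply Matrix.SpecialLinearGroup.ext; intro i j
  fin_cases i <;> fin_cases j <;> simp [coe_theta, coe_dS]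

variable {G : Type*} [Group G]

theorem Flips.conj {φ : SL(3, F) →* G} {g : G} (h : Flips φ g) (z : SL(2, F)) :
    g * φ (emb z) * g⁻¹ = φ (emb (theta z)) := by
  have e : ((MulAut.conj g).toMonoidHom.comp (φ.comp emb)).eqLocus (φ.comp (emb.comp theta)) = ⊤ :=
    closure_roots _ (fun t => show g * φ (emb (xS t)) * g⁻¹ = φ (emb (theta (xS t))) by
      rw [theta_xS]; exact (h t).1)
      (fun t => show g * φ (emb (yS t)) * g⁻¹ = φ (emb (theta (yS t))) by
      rw [theta_yS]; exact (h t).2)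
  exact (e ▸ Subgroup.mem_top z : z ∈ MonoidHom.eqLocus _ _)

/-- The generators `u, h, w, c, g`. -/
def f5 (ω : Fˣ) (φ : SL(3, F) →* G) (g : G) : Fin 5 → G := Fin.snoc (φ ∘ f3 ω) g

theorem f5_castSucc (ω : Fˣ) (φ : SL(3, F) →* G) (g : G) :
    f5 ω φ g ∘ Fin.castSucc = φ ∘ f3 ω := funext fun i => Fin.snoc_castSucc (α := fun _ => G) g (φ ∘ f3 ω) i

theorem lift_map_castSucc4 (f : Fin 5 → G) (r : FreeGroup (Fin 4)) :
    FreeGroup.lift f (FreeGroup.map Fin.castSucc r) = FreeGroup.lift (f ∘ Fin.castSucc) r := by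
  have h : (FreeGroup.lift f).comp (FreeGroup.map (Fin.castSucc : Fin 4 → Fin 5)) =
      FreeGroup.lift (f ∘ Fin.castSucc) := FreeGroup.ext_hom _ _ fun a => by simp
  exact DFunLike.congr_fun h r

local notation "gU" => (FreeGroup.of (0 : Fin 5) : FreeGroup (Fin 5))
local notation "gH" => (FreeGroup.of (1 : Fin 5) : FreeGroup (Fin 5))
local notation "gW" => (FreeGroup.of (2 : Fin 5) : FreeGroup (Fin 5))
local notation "gG" => (FreeGroup.of (4 : Fin 5) : FreeGroup (Fin 5))

/-- One or two relators describing the action of `g`. -/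
noncomputable def flipRels (F : Type*) : List (FreeGroup (Fin 5)) :=
  if Nat.card F = 4 then [gG * (gU * gH) * gG⁻¹ * (gW * (gU * gH) * gW⁻¹)⁻¹]
  else [gG * gU * gG⁻¹ * (gW⁻¹ * gU⁻¹ * gW)⁻¹, gG * gH * gG⁻¹ * gH]

variable {ω : Fˣ}

theorem exists_four (hω : ∀ x : Fˣ, x ∈ Subgroup.zpowers ω) (hq : Nat.card F = 4) :
    (2 : F) = 0 ∧ (ω : F) * ω = ω + 1 := by
  let _ : Fintype F := Fintype.ofFinite F
  have h4 : Fintype.card F = 4 := by rwa [← Nat.card_eq_fintype_card]
  have h2 : (2 : F) = 0 := by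
    have hc := FiniteField.cast_card_eq_zero F
    rw [h4] at hc
    have : (2 : F) * 2 = 0 := by norm_num; exact_mod_cast hc
    exact mul_self_eq_zero.1 this
  refine ⟨h2, ?_⟩
  have ho : orderOf ω = 3 := by
    rw [orderOf_eq_card_of_forall_mem_zpowers hω, Nat.card_units, hq]
  have h3 : (ω : F) ^ 3 = 1 := by rw [← Units.val_pow_eq_pow_val, ← ho, pow_orderOf_eq_one, Units.val_one]
  have hne : (ω : F) - 1 ≠ 0 := fun h => by
    rw [show ω = 1 from Units.ext (sub_eq_zero.1 h), orderOf_one] at ho; omega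
  have : ((ω : F) - 1) * ((ω : F) * ω + ω + 1) = 0 := by linear_combination h3
  rcases mul_eq_zero.1 this with h | h
  · exact absurd h hne
  · linear_combination h - (ω + 1 : F) * h2

theorem lift_flipRels_of (hω : ∀ x : Fˣ, x ∈ Subgroup.zpowers ω) {φ : SL(3, F) →* G} {g : G}
    (h : Flips φ g) : ∀ r ∈ flipRels F, FreeGroup.lift (f5 ω φ g) r = 1 := by
  have e0 : f5 ω φ g 0 = φ (emb (xS 1)) := congrFun (f5_castSucc ω φ g) 0
  have e1 : f5 ω φ g 1 = φ (emb (dS ω)) := congrFun (f5_castSucc ω φ g) 1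
  have e2 : f5 ω φ g 2 = φ (emb wS) := congrFun (f5_castSucc ω φ g) 2
  have e4 : f5 ω φ g 4 = g := Fin.snoc_last (α := fun _ => G) g (φ ∘ f3 ω)
  unfold flipRels
  split
  next hq =>
    obtain ⟨h2, hww⟩ := exists_four hω hq
    simp only [List.forall_mem_cons, List.not_mem_nil, false_implies, implies_true, and_true, map_mul, map_inv,
      FreeGroup.lift_apply_of, e0, e1, e2, e4, mul_inv_eq_one]
    simp only [← map_mul, ← map_inv, h.conj]
    congr 2
    rw [eq_mul_inv_iff_mul_eq]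
    apply Matrix.SpecialLinearGroup.ext; intro i j
    have hn : (-1 : F) = 1 := by linear_combination -h2
    fin_cases i <;> fin_cases j <;>
      simp [coe_theta, coe_xS, coe_dS, coe_wS, Matrix.SpecialLinearGroup.coe_mul, Matrix.mul_apply,
        Fin.sum_univ_two, hn]
  next =>
    simp only [List.forall_mem_cons, List.not_mem_nil, false_implies, implies_true, and_true, map_mul, map_inv,
      FreeGroup.lift_apply_of, e0, e1, e2, e4, mul_inv_eq_one]
    simp only [← map_mul, ← map_inv, h.conj, theta_xS, theta_dS]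
    refine ⟨?_, ?_⟩
    · rw [← xS_neg, wS_inv_conj_xS, neg_neg]
    · rw [inv_mul_cancel, map_one, map_one, map_one]

theorem flips_of (hω : ∀ x : Fˣ, x ∈ Subgroup.zpowers ω) {φ : SL(3, F) →* G} {f : Fin 5 → G}
    (hφ : ∀ i, φ (f3 ω i) = f i.castSucc) (h4 : f 4 * f 4 = 1)
    (hr : ∀ r ∈ flipRels F, FreeGroup.lift f r = 1) : Flips φ (f 4) := by
  have e0 : f 0 = φ (emb (xS 1)) := (hφ 0).symm
  have e1 : f 1 = φ (emb (dS ω)) := (hφ 1).symm
  have e2 : f 2 = φ (emb wS) := (hφ 2).symm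
  set g := f 4
  have hgi : g⁻¹ = g := inv_eq_of_mul_eq_one_right h4
  suffices hX : ∀ t, g * φ (emb (xS t)) * g⁻¹ = φ (emb (yS t)) by
    intro t
    refine ⟨hX t, ?_⟩
    rw [← hX t, hgi, show g * (g * φ (emb (xS t)) * g) * g = (g * g) * φ (emb (xS t)) * (g * g) by group,
      h4, one_mul, mul_one]
  unfold flipRels at hr
  split at hr
  next hq =>
    obtain ⟨h2, hww⟩ := exists_four hω hq
    simp only [List.forall_mem_cons, List.not_mem_nil, false_implies, implies_true, and_true, map_mul, map_inv,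
      FreeGroup.lift_apply_of, e0, e1, e2, mul_inv_eq_one] at hr
    simp only [← map_mul, ← map_inv] at hr
    set y : SL(2, F) := xS 1 * dS ω with hy
    have hn : ∀ a : F, -a = a := fun a => by linear_combination -a * h2
    have hw1 : wS * wS = (1 : SL(2, F)) := by
      rw [wS_mul_wS, show (-1 : Fˣ) = 1 from Units.ext (by simp [hn]), map_one]
    have hy' : g * φ (emb (wS * y * wS⁻¹)) * g⁻¹ = φ (emb y) := by
      rw [← hr, hgi, show g * (g * φ (emb y) * g) * g = (g * g) * φ (emb y) * (g * g) by group,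
        h4, one_mul, mul_one]
    let E : Subgroup (SL(2, F)) := ((MulAut.conj g).toMonoidHom.comp (φ.comp emb)).eqLocus
      (φ.comp (emb.comp (MulAut.conj wS).toMonoidHom))
    have hyE : y ∈ E := hr
    have hzE : wS * y * wS⁻¹ ∈ E := by
      show g * φ (emb (wS * y * wS⁻¹)) * g⁻¹ = φ (emb (wS * (wS * y * wS⁻¹) * wS⁻¹))
      rw [hy', show wS * (wS * y * wS⁻¹) * wS⁻¹ = (wS * wS) * y * (wS * wS)⁻¹ by group, hw1, one_mul, inv_one,
        mul_one]
    have hu : xS (1 : F) ∈ E := by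
      have := mul_mem (mul_mem (mul_mem hzE hyE) (inv_mem hzE)) hyE
      have hch : CharP F 2 := CharTwo.of_one_ne_zero_of_two_eq_zero one_ne_zero h2
      have hi : ((ω⁻¹ : Fˣ) : F) = ω + 1 := by
        rw [Units.val_inv_eq_inv_val]
        refine inv_eq_of_mul_eq_one_right ?_
        linear_combination hww + (ω : F) * h2
      convert this using 1
      apply Matrix.SpecialLinearGroup.ext; intro i j
      fin_cases i <;> fin_cases j <;>
        simp [hy, hi, hn, coe_xS, coe_dS, coe_wS, Matrix.SpecialLinearGroup.coe_mul,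
          Matrix.SpecialLinearGroup.coe_inv, Matrix.adjugate_fin_two_of, Matrix.mul_apply, Fin.sum_univ_two,
          mul_add, add_mul, hww, add_comm, add_left_comm, CharTwo.add_self_eq_zero,
          CharTwo.add_cancel_left]
    have hh : dS ω ∈ E := by
      have := mul_mem (inv_mem hu) hyE
      rwa [hy, inv_mul_cancel_left] at this
    intro t
    have ht : xS t ∈ E := by
      let A : AddSubmonoid F :=
        { carrier := {a | xS a ∈ E}
          zero_mem' := by
            show xS (0 : F) ∈ E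
            rw [SL3Pres.xS_zero]; exact one_mem E
          add_mem' := fun {a b} ha hb => by
            show xS (a + b) ∈ E
            rw [xS_add]; exact mul_mem ha hb }
      refine mem_of_sq_closed hω A hu (fun a ha => ?_) t
      show xS ((ω : F) ^ 2 * a) ∈ E
      rw [← dS_xS]; exact mul_mem (mul_mem hh ha) (inv_mem hh)
    have h := (show g * φ (emb (xS t)) * g⁻¹ = φ (emb (wS * xS t * wS⁻¹)) from ht)
    rwa [wS_conj_xS, hn] at h
  next =>
    simp only [List.forall_mem_cons, List.not_mem_nil, false_implies, implies_true, and_true, map_mul, map_inv,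
      FreeGroup.lift_apply_of, e0, e1, e2, mul_inv_eq_one] at hr
    obtain ⟨hru, hrh⟩ := hr
    simp only [← map_mul, ← map_inv, ← SL3Pres.xS_neg, wS_inv_conj_xS, neg_neg] at hru
    have hh : g * φ (emb (dS ω)) * g⁻¹ = (φ (emb (dS ω)))⁻¹ := eq_inv_of_mul_eq_one_left hrh
    let A : AddSubmonoid F :=
      { carrier := {a | g * φ (emb (xS a)) * g⁻¹ = φ (emb (yS a))}
        zero_mem' := by simp [SL3Pres.xS_zero, SL3Pres.yS_zero]
        add_mem' := fun {a b} ha hb => by
          simp only [Set.mem_ofPred_eq] at ha hb ⊢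
          rw [xS_add, SL3Pres.yS_add, map_mul, map_mul, map_mul, map_mul, ← ha, ← hb]; group }
    refine mem_of_sq_closed hω A hru (fun a ha => ?_)
    show g * φ (emb (xS ((ω : F) ^ 2 * a))) * g⁻¹ = φ (emb (yS ((ω : F) ^ 2 * a)))
    have ha' : g * φ (emb (xS a)) * g⁻¹ = φ (emb (yS a)) := ha
    have hd := dS_yS ω⁻¹ a
    rw [inv_inv, map_inv, inv_inv] at hd
    simp only [← dS_xS, ← hd, map_mul, map_inv]
    rw [← ha']
    calc g * (φ (emb (dS ω)) * φ (emb (xS a)) * (φ (emb (dS ω)))⁻¹) * g⁻¹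
        = (g * φ (emb (dS ω)) * g⁻¹) * (g * φ (emb (xS a)) * g⁻¹) * (g * φ (emb (dS ω)) * g⁻¹)⁻¹ := by group
      _ = _ := by rw [hh, inv_inv]

/-- At most `m` relators on `u, h, w, c, g`. -/
def IsRel5 (ω : Fˣ) (m : ℕ) : Prop :=
  ∃ R : List (FreeGroup (Fin 5)), R.length ≤ m ∧
    (∀ (G : Type u) [Group G] (φ : SL(3, F) →* G) (g : G), Flips φ g →
      ∀ r ∈ R, FreeGroup.lift (f5 ω φ g) r = 1) ∧
    ∀ (G : Type) [Group G] (f : Fin 5 → G), f 3 * f 3 * f 3 = 1 → f 4 * f 4 = 1 →
      (∀ r ∈ R, FreeGroup.lift f r = 1) →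
        ∃ φ : SL(3, F) →* G, (∀ i, φ (f3 ω i) = f i.castSucc) ∧ Flips φ (f 4)

theorem isRel5 (hω : ∀ x : Fˣ, x ∈ Subgroup.zpowers ω) : IsRel5 ω 14 := by
  obtain ⟨R, hRm, hRS, hRG⟩ := isRel3 hω
  refine ⟨R.map (FreeGroup.map Fin.castSucc) ++ flipRels F, ?_, ?_, ?_⟩
  · rw [List.length_append, List.length_map, flipRels]
    split_ifs at hRm ⊢ <;> simp <;> omega
  · intro G _ φ g hg r hr
    simp only [List.mem_append, List.mem_map] at hr
    rcases hr with ⟨r, hr, rfl⟩ | hr
    · rw [lift_map_castSucc4, f5_castSucc]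
      have h : FreeGroup.lift (φ ∘ f3 ω) = φ.comp (FreeGroup.lift (f3 ω)) :=
        FreeGroup.ext_hom _ _ fun a => by simp
      rw [h, MonoidHom.comp_apply, hRS r hr, map_one]
    · exact lift_flipRels_of hω hg r hr
  · intro G _ f h3 h4 hf
    obtain ⟨φ, hφ⟩ := hRG G (f ∘ Fin.castSucc) h3 fun r hr => by
      rw [← lift_map_castSucc4]
      exact hf _ (List.mem_append_left _ (List.mem_map.2 ⟨r, hr, rfl⟩))
    exact ⟨φ, hφ, flips_of hω hφ h4 fun r hr => hf r (List.mem_append_right _ hr)⟩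

end CfsgLib.SLnPres
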