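import Cfsg.Agent.Lib.SLnPres.Setup
import Cfsg.Agent.Lib.SLnPres.FlipRel

/-!
Inside `SL_{k+4}(F)`: the upper left block `SL₃(F)` and the permutation matrices of even permutations.
-/

set_option autoImplicit false
set_option linter.unusedSectionVars false

namespace CfsgLib.SLnPres

open Equiv CfsgLib.SL2Pres CfsgLib.SL3Pres
open scoped MatrixGroups

variable {F : Type*} [Field F] [Finite F] {k : ℕ}

section Perm

variable {ι : Type*} [Fintype ι] [DecidableEq ι]

/-- Permutation matrices of even permutations. -/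
def pm : alternatingGroup ι →* Matrix.SpecialLinearGroup ι F where
  toFun σ := ⟨Equiv.Perm.permMatrix F (σ.1⁻¹), by
    rw [Matrix.det_permutation, map_inv, show Perm.sign σ.1 = 1 from σ.2]; simp⟩
  map_one' := Subtype.ext (by
    show Equiv.Perm.permMatrix F ((1 : Perm ι)⁻¹) = 1
    rw [inv_one, Matrix.permMatrix_one])
  map_mul' σ τ := Subtype.ext (by
    show Equiv.Perm.permMatrix F ((σ.1 * τ.1)⁻¹) = _
    rw [mul_inv_rev, Matrix.permMatrix_mul]; rfl)

theorem coe_pm (σ : alternatingGroup ι) :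
    ((pm σ : Matrix.SpecialLinearGroup ι F) : Matrix ι ι F) = Equiv.Perm.permMatrix F (σ.1⁻¹) := rfl

theorem pm_conj (σ : alternatingGroup ι) {i j : ι} (h : i ≠ j) (t : F) :
    pm σ * Matrix.SpecialLinearGroup.transvection h t * (pm σ)⁻¹ =
      Matrix.SpecialLinearGroup.transvection (fun e => h (σ.1.injective e)) t := by
  rw [mul_inv_eq_iff_eq_mul]
  refine Subtype.ext ?_
  show Equiv.Perm.permMatrix F (σ.1⁻¹) * Matrix.transvection i j t =
    Matrix.transvection (σ.1 i) (σ.1 j) t * Equiv.Perm.permMatrix F (σ.1⁻¹)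
  ext a b
  simp only [Equiv.Perm.permMatrix, PEquiv.toMatrix_toPEquiv_mul, PEquiv.mul_toMatrix_toPEquiv,
    Matrix.submatrix_apply, id, Matrix.transvection, Matrix.add_apply, Matrix.one_apply, Matrix.single_apply,
    Equiv.Perm.inv_def, Equiv.symm_symm, Equiv.eq_symm_apply, Equiv.symm_apply_eq,
    σ.1.injective.eq_iff]

end Perm

/-- The element `diag(-1, 1, -1)`. -/
def delta : SL(3, F) := ⟨!![-1, 0, 0; 0, 1, 0; 0, 0, -1], by simp [Matrix.det_fin_three]⟩

theorem coe_delta : ((delta : SL(3, F)) : Matrix (Fin 3) (Fin 3) F) = !![-1, 0, 0; 0, 1, 0; 0, 0, -1] := rfl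

/-- The change of signs that makes the three-cycle a permutation matrix. -/
def tw : SL(3, F) →* SL(3, F) := (MulAut.conj delta).toMonoidHom

theorem tw_tw (z : SL(3, F)) : tw (tw z) = z := by
  have h : delta * delta = (1 : SL(3, F)) := by
    apply Matrix.SpecialLinearGroup.ext; intro i j
    fin_cases i <;> fin_cases j <;>
      simp [coe_delta, Matrix.SpecialLinearGroup.coe_mul, Matrix.mul_apply, Fin.sum_univ_three]
  show delta * (delta * z * delta⁻¹) * delta⁻¹ = z
  rw [show delta * (delta * z * delta⁻¹) * delta⁻¹ = (delta * delta) * z * (delta * delta)⁻¹ by group, h,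
    one_mul, inv_one, mul_one]

/-- The three-cycle of `Fin 3`. -/
def rot3 : alternatingGroup (Fin 3) :=
  ⟨Equiv.addRight 1, by show Perm.sign _ = 1; decide⟩

theorem tw_cyc : tw (cyc : SL(3, F)) = pm rot3 := by
  show delta * cyc * delta⁻¹ = _
  rw [mul_inv_eq_iff_eq_mul]
  apply Matrix.SpecialLinearGroup.ext; intro i j
  fin_cases i <;> fin_cases j <;>
    simp [coe_delta, coe_cyc, coe_pm, rot3, Equiv.Perm.permMatrix, PEquiv.toMatrix_apply,
      show (2 : Fin 3) + -1 = 1 from rfl,
      Matrix.SpecialLinearGroup.coe_mul, Matrix.mul_apply, Fin.sum_univ_three, Equiv.Perm.inv_def]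

theorem e3_coe {a b : Fin 3} (h : a ≠ b) (t : F) :
    ((e3 a b t : SL(3, F)) : Matrix (Fin 3) (Fin 3) F) = Matrix.transvection a b t := by
  rw [e3_eq h]; rfl

theorem tw_emb_xS (t : F) : tw (emb (xS t)) = e3 0 1 (-t) := by
  show delta * emb (xS t) * delta⁻¹ = _
  rw [mul_inv_eq_iff_eq_mul]
  apply Matrix.SpecialLinearGroup.ext; intro i j
  fin_cases i <;> fin_cases j <;>
    simp [coe_delta, coe_emb, coe_xS, e3_coe (show (0 : Fin 3) ≠ 1 by decide), Matrix.transvection,
      Matrix.single_apply, Matrix.SpecialLinearGroup.coe_mul, Matrix.mul_apply, Fin.sum_univ_three]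

theorem tw_emb_yS (t : F) : tw (emb (yS t)) = e3 1 0 (-t) := by
  show delta * emb (yS t) * delta⁻¹ = _
  rw [mul_inv_eq_iff_eq_mul]
  apply Matrix.SpecialLinearGroup.ext; intro i j
  fin_cases i <;> fin_cases j <;>
    simp [coe_delta, coe_emb, coe_yS, e3_coe (show (1 : Fin 3) ≠ 0 by decide), Matrix.transvection,
      Matrix.single_apply, Matrix.SpecialLinearGroup.coe_mul, Matrix.mul_apply, Fin.sum_univ_three]

theorem tw_e01 (t : F) : tw (e3 0 1 t) = emb (xS (-t)) := by
  rw [show e3 (0 : Fin 3) 1 t = tw (emb (xS (-t))) by rw [tw_emb_xS, neg_neg], tw_tw]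

theorem tw_e10 (t : F) : tw (e3 1 0 t) = emb (yS (-t)) := by
  rw [show e3 (1 : Fin 3) 0 t = tw (emb (yS (-t))) by rw [tw_emb_yS, neg_neg], tw_tw]

theorem pm_rot3_e3 (a b : Fin 3) (t : F) :
    pm rot3 * e3 a b t * (pm rot3)⁻¹ = e3 (a + 1) (b + 1) t := by
  rcases eq_or_ne a b with rfl | h
  · simp [e3]
  · rw [e3_eq h, pm_conj, e3_eq (fun e => h (add_right_cancel e))]
    rfl

/-- The indices of the block and the rest. -/
def blockEquiv (k : ℕ) : Fin 3 ⊕ Fin (k + 1) ≃ Fin (k + 4) :=
  finSumFinEquiv.trans (finCongr (by omega))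

theorem blockEquiv_inl (a : Fin 3) : blockEquiv k (Sum.inl a) = pt a := Fin.ext (by simp [blockEquiv, pt])

theorem blockEquiv_inr_ge (a : Fin (k + 1)) : 3 ≤ (blockEquiv k (Sum.inr a) : ℕ) := by
  simp [blockEquiv]

/-- The upper left block. -/
def bl : SL(3, F) →* SL(k + 4, F) where
  toFun M := ⟨Matrix.reindex (blockEquiv k) (blockEquiv k)
    (Matrix.fromBlocks M.1 0 0 (1 : Matrix (Fin (k + 1)) (Fin (k + 1)) F)), by
      rw [Matrix.det_reindex_self, Matrix.det_fromBlocks_zero₁₂, Matrix.det_one, mul_one]; exact M.2⟩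
  map_one' := Subtype.ext (by simp)
  map_mul' a b := Subtype.ext (by
    show _ = (_ : Matrix (Fin (k + 4)) (Fin (k + 4)) F) * _
    simp only [Matrix.reindex_apply, Matrix.SpecialLinearGroup.coe_mul, Matrix.submatrix_mul_equiv,
      Matrix.fromBlocks_multiply, Matrix.zero_mul, Matrix.mul_zero, add_zero, zero_add, Matrix.mul_one])

theorem coe_bl (M : SL(3, F)) : ((bl M : SL(k + 4, F)) : Matrix (Fin (k + 4)) (Fin (k + 4)) F) =
    Matrix.reindex (blockEquiv k) (blockEquiv k)
      (Matrix.fromBlocks M.1 0 0 (1 : Matrix (Fin (k + 1)) (Fin (k + 1)) F)) := rfl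

theorem bl_e3 {a b : Fin 3} (h : a ≠ b) (t : F) :
    (bl (e3 a b t) : SL(k + 4, F)) = Matrix.SpecialLinearGroup.transvection (pt_ne h) t := by
  apply Matrix.SpecialLinearGroup.ext; intro i j
  obtain ⟨i, rfl⟩ := (blockEquiv k).surjective i
  obtain ⟨j, rfl⟩ := (blockEquiv k).surjective j
  rw [coe_bl, Matrix.SpecialLinearGroup.transvection_coe, ← blockEquiv_inl, ← blockEquiv_inl,
    Matrix.reindex_apply, Matrix.submatrix_apply, Equiv.symm_apply_apply, Equiv.symm_apply_apply,
    e3_coe h, Matrix.add_apply, Matrix.one_apply, Matrix.single_apply]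
  simp only [(blockEquiv k).injective.eq_iff]
  rcases i with i | i <;> rcases j with j | j <;>
    simp [Matrix.transvection, Matrix.one_apply, Matrix.single_apply]

theorem bl_pm_rot3 : (bl (pm rot3) : SL(k + 4, F)) = pm c012 := by
  apply Matrix.SpecialLinearGroup.ext; intro i j
  obtain ⟨i, rfl⟩ := (blockEquiv k).surjective i
  obtain ⟨j, rfl⟩ := (blockEquiv k).surjective j
  rw [coe_bl, coe_pm, coe_pm, Matrix.reindex_apply, Matrix.submatrix_apply, Equiv.symm_apply_apply,
    Equiv.symm_apply_apply]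
  simp only [Equiv.Perm.permMatrix, PEquiv.toMatrix_apply, Equiv.toPEquiv_apply, Option.mem_some_iff,
    Equiv.Perm.inv_def, Equiv.symm_apply_eq]
  rcases j with j | j
  · rw [blockEquiv_inl, c012_pt, ← blockEquiv_inl]
    simp only [(blockEquiv k).injective.eq_iff]
    rcases i with i | i <;>
      simp [rot3, PEquiv.toMatrix_apply, ← sub_eq_add_neg, sub_eq_iff_eq_add]
  · have hf : (c012 : alternatingGroup (Fin (k + 4))).1 (blockEquiv k (Sum.inr j)) =
        blockEquiv k (Sum.inr j) := by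
      have h3 := blockEquiv_inr_ge j
      refine cyc3_apply_other (fun e => ?_) (fun e => ?_) (fun e => ?_) <;>
        rw [e] at h3 <;> simp [mod_two'] at h3
    rw [hf]
    simp only [(blockEquiv k).injective.eq_iff]
    rcases i with i | i <;> simp [Matrix.one_apply]

/-- The homomorphism on `SL₃(F)` used for the generators. -/
def model3 (k : ℕ) : SL(3, F) →* SL(k + 4, F) := bl.comp tw

theorem pm_conj_bl (σ : alternatingGroup (Fin (k + 4))) {a b : Fin 3} (h : a ≠ b) (t : F) :
    pm σ * bl (e3 a b t) * (pm σ)⁻¹ =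
      Matrix.SpecialLinearGroup.transvection (fun e => pt_ne h (σ.1.injective e)) t := by
  rw [bl_e3 h, pm_conj]

theorem transvection_congr {n : Type*} [Fintype n] [DecidableEq n] {i j i' j' : n} (h : i ≠ j) (h' : i' ≠ j')
    (hi : i = i') (hj : j = j') (t : F) :
    Matrix.SpecialLinearGroup.transvection h t = Matrix.SpecialLinearGroup.transvection h' t := by
  subst hi hj; rfl

theorem model3_flips : Flips (model3 (F := F) k) (pm flipAlt) := by
  have f0 : (flipAlt : alternatingGroup (Fin (k + 4))).1 (pt 0) = pt 1 := by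
    rw [pt_zero, pt_one]; simp [flipAlt, swap_apply_of_ne_of_ne zero_ne_two' zero_ne_three']
  have f1 : (flipAlt : alternatingGroup (Fin (k + 4))).1 (pt 1) = pt 0 := by
    rw [pt_zero, pt_one]; simp [flipAlt, swap_apply_of_ne_of_ne one_ne_two' one_ne_three']
  intro t
  have h1 : (1 : Fin 3) ≠ 0 := by decide
  constructor
  · show pm flipAlt * bl (tw (emb (xS t))) * (pm flipAlt)⁻¹ = bl (tw (emb (yS t)))
    rw [tw_emb_xS, tw_emb_yS, pm_conj_bl _ h1.symm, bl_e3 h1]
    exact transvection_congr _ _ f0 f1 _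
  · show pm flipAlt * bl (tw (emb (yS t))) * (pm flipAlt)⁻¹ = bl (tw (emb (xS t)))
    rw [tw_emb_xS, tw_emb_yS, pm_conj_bl _ h1, bl_e3 h1.symm]
    exact transvection_congr _ _ f1 f0 _

theorem model3_cyc : model3 k (cyc : SL(3, F)) = pm c012 := by
  show bl (tw cyc) = _
  rw [tw_cyc, bl_pm_rot3]

theorem model3_fix (z : SL(2, F)) : Commute (pm cycAlt : SL(k + 4, F)) (model3 k (emb z)) := by
  have key : ∀ {a b : Fin 3} (h : a ≠ b), (a : ℕ) < 2 → (b : ℕ) < 2 → ∀ t : F,
      Commute (pm cycAlt : SL(k + 4, F)) (bl (e3 a b t)) := fun {a b} h ha hb t => by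
    have he := pm_conj_bl (F := F) (cycAlt : alternatingGroup (Fin (k + 4))) h t
    rw [transvection_congr _ (pt_ne h) (cycAlt_fix (by simpa [pt] using ha)) (cycAlt_fix (by simpa [pt] using hb)),
      ← bl_e3 h] at he
    exact mul_inv_eq_iff_eq_mul.1 he
  have h := closure_roots ((Subgroup.centralizer {(pm cycAlt : SL(k + 4, F))}).comap ((model3 k).comp emb))
    (fun t => Subgroup.mem_centralizer_singleton_iff.2 (by
      show (bl (tw (emb (xS t))) : SL(k + 4, F)) * pm cycAlt = pm cycAlt * bl (tw (emb (xS t)))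
      rw [tw_emb_xS]; exact (key (by decide) (by decide) (by decide) _).symm.eq))
    (fun t => Subgroup.mem_centralizer_singleton_iff.2 (by
      show (bl (tw (emb (yS t))) : SL(k + 4, F)) * pm cycAlt = pm cycAlt * bl (tw (emb (yS t)))
      rw [tw_emb_yS]; exact (key (by decide) (by decide) (by decide) _).symm.eq))
  exact (Subgroup.mem_centralizer_singleton_iff.1 (h ▸ Subgroup.mem_top z : z ∈ Subgroup.comap _ _)).symm

theorem model3_disj :
    Commute (model3 k (emb (xS (1 : F)))) (pm sigma0 * model3 k (emb (xS (1 : F))) * (pm sigma0)⁻¹) := by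
  show Commute (bl (tw (emb (xS (1 : F))))) (pm sigma0 * bl (tw (emb (xS (1 : F)))) * (pm sigma0)⁻¹)
  rw [tw_emb_xS, pm_conj_bl _ (by decide : (0 : Fin 3) ≠ 1), bl_e3 (by decide : (0 : Fin 3) ≠ 1)]
  refine Subtype.ext ?_
  show Matrix.transvection _ _ (-1 : F) * Matrix.transvection _ _ (-1 : F) =
    Matrix.transvection _ _ (-1 : F) * Matrix.transvection _ _ (-1 : F)
  rw [pt_zero, pt_one, sigma0_zero, sigma0_one]
  simp only [Matrix.transvection, mul_add, add_mul, one_mul, mul_one,
    Matrix.single_mul_single_of_ne _ _ _ _ (one_ne_two' (k := k)),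
    Matrix.single_mul_single_of_ne _ _ _ _ (zero_ne_three' (k := k)).symm]
  abel

theorem closure_model :
    (model3 (F := F) k).range ⊔ (pm : alternatingGroup (Fin (k + 4)) →* SL(k + 4, F)).range = ⊤ := by
  refine ClassicalLinear.eq_top_of_transvection_mem fun i j hij t => ?_
  obtain ⟨σ, rfl, rfl⟩ := exists_even_pair hij
  have h : (0 : Fin 3) ≠ 1 := by decide
  rw [transvection_congr hij (fun e => pt_ne h (σ.1.injective e)) (by rw [pt_zero]) (by rw [pt_one]),
    ← pm_conj_bl σ h]
  refine mul_mem (mul_mem (Subgroup.mem_sup_right ⟨σ, rfl⟩) (Subgroup.mem_sup_left ?_))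
    (inv_mem (Subgroup.mem_sup_right ⟨σ, rfl⟩))
  exact ⟨tw (e3 0 1 t), congrArg bl (tw_tw _)⟩

theorem cycAlt_zero : (cycAlt : alternatingGroup (Fin (0 + 4))) = 1 := by
  refine Subtype.ext (Equiv.ext fun x => ?_)
  fin_cases x <;> decide

end CfsgLib.SLnPres
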