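import Cfsg.Agent.Lib.ShortPres.Carmichael
import Mathlib.GroupTheory.Perm.Fin
import Mathlib.GroupTheory.SpecificGroups.Alternating

/-!
Even permutations of `Fin (k + 4)`: transitivity on short tuples, and two generators of the stabiliser of `{0, 1}`.
-/

set_option autoImplicit false
set_option linter.unusedSectionVars false

namespace CfsgLib.SLnPres

open Equiv

variable {α : Type*} [DecidableEq α] [Fintype α]

/-- The three-cycle `a → b → d → a`. -/
def cyc3 (a b d : α) : Perm α := swap a b * swap b d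

theorem sign_cyc3 {a b d : α} (hab : a ≠ b) (hbd : b ≠ d) : Perm.sign (cyc3 a b d) = 1 := by
  rw [cyc3, map_mul, Perm.sign_swap hab, Perm.sign_swap hbd]; rfl

theorem conj_cyc3 (π : Perm α) (a b d : α) :
    π * cyc3 a b d * π⁻¹ = cyc3 (π a) (π b) (π d) := by
  have h : ∀ x y, π * swap x y * π⁻¹ = swap (π x) (π y) := fun x y => by
    rw [mul_swap_eq_swap_mul, mul_inv_cancel_right]
  rw [cyc3, cyc3, ← h a b, ← h b d]; group

theorem cyc3_inv {a b d : α} (hab : a ≠ b) (had : a ≠ d) (hbd : b ≠ d) :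
    (cyc3 a b d)⁻¹ = cyc3 b a d := by
  have h : ∀ x, cyc3 b a d (cyc3 a b d x) = x := fun x => by
    simp only [cyc3, Perm.mul_apply]
    simp only [swap_apply_def]
    split_ifs <;> simp_all
  exact inv_eq_of_mul_eq_one_left (Perm.ext h)

theorem cyc3_apply_left {a b d : α} (hab : a ≠ b) (had : a ≠ d) : cyc3 a b d a = b := by
  simp [cyc3, swap_apply_of_ne_of_ne hab had]

theorem cyc3_apply_mid {a b d : α} (hbd : b ≠ d) (had : a ≠ d) : cyc3 a b d b = d := by
  simp [cyc3, swap_apply_of_ne_of_ne (Ne.symm had) (Ne.symm hbd)]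

theorem cyc3_apply_right {a b d : α} : cyc3 a b d d = a := by simp [cyc3]

theorem cyc3_apply_other {a b d x : α} (ha : x ≠ a) (hb : x ≠ b) (hd : x ≠ d) : cyc3 a b d x = x := by
  simp [cyc3, swap_apply_of_ne_of_ne hb hd, swap_apply_of_ne_of_ne ha hb]

theorem exists_perm_four {a b d e i j k l : α} (h1 : a ≠ b) (h2 : a ≠ d) (h3 : a ≠ e) (h4 : b ≠ d)
    (h5 : b ≠ e) (h6 : d ≠ e) (g1 : i ≠ j) (g2 : i ≠ k) (g3 : i ≠ l) (g4 : j ≠ k) (g5 : j ≠ l) (g6 : k ≠ l) :
    ∃ π : Perm α, π a = i ∧ π b = j ∧ π d = k ∧ π e = l := by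
  set p1 : Perm α := swap a i with hp1
  have e1 : p1 a = i := swap_apply_left a i
  set p2 : Perm α := swap (p1 b) j * p1 with hp2
  have e2 : p2 a = i ∧ p2 b = j := by
    refine ⟨?_, by simp [hp2]⟩
    rw [hp2, Perm.mul_apply, e1, swap_apply_of_ne_of_ne ?_ g1]
    exact fun h => h1 (p1.injective (e1.trans h))
  set p3 : Perm α := swap (p2 d) k * p2 with hp3
  have e3 : p3 a = i ∧ p3 b = j ∧ p3 d = k := by
    refine ⟨?_, ?_, by simp [hp3]⟩
    · rw [hp3, Perm.mul_apply, e2.1, swap_apply_of_ne_of_ne ?_ g2]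
      exact fun h => h2 (p2.injective (e2.1.trans h))
    · rw [hp3, Perm.mul_apply, e2.2, swap_apply_of_ne_of_ne ?_ g4]
      exact fun h => h4 (p2.injective (e2.2.trans h))
  refine ⟨swap (p3 e) l * p3, ?_, ?_, ?_, by simp⟩
  · rw [Perm.mul_apply, e3.1, swap_apply_of_ne_of_ne ?_ g3]
    exact fun h => h3 (p3.injective (e3.1.trans h))
  · rw [Perm.mul_apply, e3.2.1, swap_apply_of_ne_of_ne ?_ g5]
    exact fun h => h5 (p3.injective (e3.2.1.trans h))
  · rw [Perm.mul_apply, e3.2.2, swap_apply_of_ne_of_ne ?_ g6]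
    exact fun h => h6 (p3.injective (e3.2.2.trans h))

variable {k : ℕ}

theorem fin_ne {a b : ℕ} (ha : a < k + 4) (hb : b < k + 4) (h : a ≠ b) : (⟨a, ha⟩ : Fin (k + 4)) ≠ ⟨b, hb⟩ :=
  fun e => h (congrArg Fin.val e)

theorem zero_ne_one' : (0 : Fin (k + 4)) ≠ 1 := by simp
theorem val_two' : ((2 : Fin (k + 4)) : ℕ) = 2 := Nat.mod_eq_of_lt (a := 2) (b := k + 4) (by omega)
theorem val_three' : ((3 : Fin (k + 4)) : ℕ) = 3 := Nat.mod_eq_of_lt (a := 3) (b := k + 4) (by omega)
theorem val_one' : ((1 : Fin (k + 4)) : ℕ) = 1 := Nat.mod_eq_of_lt (a := 1) (b := k + 4) (by omega)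
theorem mod_two' : 2 % (k + 4) = 2 := Nat.mod_eq_of_lt (by omega)
theorem mod_three' : 3 % (k + 4) = 3 := Nat.mod_eq_of_lt (by omega)
theorem mod_one' : 1 % (k + 4) = 1 := Nat.mod_eq_of_lt (by omega)
theorem zero_ne_two' : (0 : Fin (k + 4)) ≠ 2 := fun h => by simpa [mod_two'] using congrArg Fin.val h
theorem zero_ne_three' : (0 : Fin (k + 4)) ≠ 3 := fun h => by simpa [mod_three'] using congrArg Fin.val h
theorem one_ne_two' : (1 : Fin (k + 4)) ≠ 2 := fun h => by simpa [mod_two', mod_one'] using congrArg Fin.val h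
theorem one_ne_three' : (1 : Fin (k + 4)) ≠ 3 := fun h => by simpa [mod_three', mod_one'] using congrArg Fin.val h
theorem two_ne_three' : (2 : Fin (k + 4)) ≠ 3 := fun h => by simpa [mod_two', mod_three'] using congrArg Fin.val h

theorem exists_fresh (s : Finset (Fin (k + 4))) (hs : s.card < k + 4) : ∃ x, x ∉ s := by
  by_contra h
  push Not at h
  have := Finset.eq_univ_of_forall h
  rw [this, Finset.card_univ, Fintype.card_fin] at hs
  exact lt_irrefl _ hs

theorem exists_even_pair {i j : Fin (k + 4)} (h : i ≠ j) :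
    ∃ σ : alternatingGroup (Fin (k + 4)), σ.1 0 = i ∧ σ.1 1 = j := by
  obtain ⟨l, hl⟩ := exists_fresh {i, j} (lt_of_le_of_lt Finset.card_le_two (by omega))
  simp only [Finset.mem_insert, Finset.mem_singleton, not_or] at hl
  obtain ⟨m, hm⟩ := exists_fresh {i, j, l} (lt_of_le_of_lt Finset.card_le_three (by omega))
  simp only [Finset.mem_insert, Finset.mem_singleton, not_or] at hm
  obtain ⟨π, p0, p1, -, -⟩ := exists_perm_four zero_ne_one' zero_ne_two' zero_ne_three' one_ne_two'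
    one_ne_three' two_ne_three' h (Ne.symm hl.1) (Ne.symm hm.1) (Ne.symm hl.2) (Ne.symm hm.2.1)
    (Ne.symm hm.2.2)
  rcases Int.units_eq_one_or (Perm.sign π) with hs | hs
  · exact ⟨⟨π, hs⟩, p0, p1⟩
  · refine ⟨⟨π * swap 2 3, ?_⟩, ?_, ?_⟩
    · show Perm.sign (π * swap 2 3) = 1
      rw [map_mul, hs, Perm.sign_swap two_ne_three']; rfl
    · simp [swap_apply_of_ne_of_ne zero_ne_two' zero_ne_three', p0]
    · simp [swap_apply_of_ne_of_ne one_ne_two' one_ne_three', p1]

theorem exists_even_triple {i j l : Fin (k + 4)} (h1 : i ≠ j) (h2 : i ≠ l) (h3 : j ≠ l) :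
    ∃ σ : alternatingGroup (Fin (k + 4)), ∃ a b : Fin (k + 4),
      ((a = 0 ∧ b = 1) ∨ (a = 1 ∧ b = 0)) ∧ σ.1 a = i ∧ σ.1 b = j ∧ σ.1 2 = l := by
  obtain ⟨m, hm⟩ := exists_fresh {i, j, l} (lt_of_le_of_lt Finset.card_le_three (by omega))
  simp only [Finset.mem_insert, Finset.mem_singleton, not_or] at hm
  obtain ⟨π, p0, p1, p2, -⟩ := exists_perm_four zero_ne_one' zero_ne_two' zero_ne_three' one_ne_two'
    one_ne_three' two_ne_three' h1 h2 (Ne.symm hm.1) h3 (Ne.symm hm.2.1) (Ne.symm hm.2.2)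
  rcases Int.units_eq_one_or (Perm.sign π) with hs | hs
  · exact ⟨⟨π, hs⟩, 0, 1, Or.inl ⟨rfl, rfl⟩, p0, p1, p2⟩
  · refine ⟨⟨π * swap 0 1, ?_⟩, 1, 0, Or.inr ⟨rfl, rfl⟩, ?_, ?_, ?_⟩
    · show Perm.sign (π * swap 0 1) = 1
      rw [map_mul, hs, Perm.sign_swap zero_ne_one']; rfl
    · simp [p0]
    · simp [p1]
    · simp [swap_apply_of_ne_of_ne (Ne.symm zero_ne_two') (Ne.symm one_ne_two'), p2]

theorem exists_even_quad {i j l m : Fin (k + 4)} (h1 : i ≠ j) (h2 : i ≠ l) (h3 : i ≠ m) (h4 : j ≠ l)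
    (h5 : j ≠ m) (h6 : l ≠ m) :
    ∃ σ : alternatingGroup (Fin (k + 4)), ∃ a b : Fin (k + 4),
      ((a = 0 ∧ b = 2) ∨ (a = 2 ∧ b = 0)) ∧ σ.1 a = i ∧ σ.1 1 = j ∧ σ.1 b = l ∧ σ.1 3 = m := by
  obtain ⟨π, p0, p1, p2, p3⟩ := exists_perm_four zero_ne_one' zero_ne_two' zero_ne_three' one_ne_two'
    one_ne_three' two_ne_three' h1 h2 h3 h4 h5 h6
  rcases Int.units_eq_one_or (Perm.sign π) with hs | hs
  · exact ⟨⟨π, hs⟩, 0, 2, Or.inl ⟨rfl, rfl⟩, p0, p1, p2, p3⟩
  · refine ⟨⟨π * swap 0 2, ?_⟩, 2, 0, Or.inr ⟨rfl, rfl⟩, ?_, ?_, ?_, ?_⟩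
    · show Perm.sign (π * swap 0 2) = 1
      rw [map_mul, hs, Perm.sign_swap zero_ne_two']; rfl
    · simp [p0]
    · simp [swap_apply_of_ne_of_ne (Ne.symm zero_ne_one') one_ne_two', p1]
    · simp [p2]
    · simp [swap_apply_of_ne_of_ne (Ne.symm zero_ne_three') (Ne.symm two_ne_three'), p3]

/-- The cycle `(0 1 2)`. -/
def c012 : alternatingGroup (Fin (k + 4)) :=
  ⟨cyc3 0 1 2, sign_cyc3 zero_ne_one' one_ne_two'⟩

/-- The involution `(0 1)(2 3)`. -/
def flipAlt : alternatingGroup (Fin (k + 4)) :=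
  ⟨swap 0 1 * swap 2 3, by
    show Perm.sign _ = 1
    rw [map_mul, Perm.sign_swap zero_ne_one', Perm.sign_swap two_ne_three']; rfl⟩

/-- The first point of the long cycle: `2` if its length is odd, else `3`. -/
def cycStart (k : ℕ) : Fin (k + 4) := if Even k then 3 else 2

/-- A cycle of odd length on the points other than `0`, `1`, and possibly `2`. -/
def cycAlt : alternatingGroup (Fin (k + 4)) :=
  ⟨Fin.cycleIcc (cycStart k) (Fin.last (k + 3)), by
    show Perm.sign _ = 1
    rw [Fin.sign_cycleIcc_of_le (Fin.le_last _)]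
    apply Even.neg_one_pow
    unfold cycStart
    rcases Nat.even_or_odd k with hk | hk
    · rw [if_pos hk]
      rw [Fin.val_last, val_three', Nat.add_sub_cancel]; exact hk
    · rw [if_neg (Nat.not_even_iff_odd.2 hk)]
      rw [Fin.val_last, val_two', show k + 3 - 2 = k + 1 by omega]; exact hk.add_one⟩

theorem cycStart_le : ((cycStart k : Fin (k + 4)) : ℕ) ≤ 3 ∧ 2 ≤ ((cycStart k : Fin (k + 4)) : ℕ) := by
  unfold cycStart
  split
  · rw [val_three']; omega
  · rw [val_two']; omega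

theorem cycAlt_fix {x : Fin (k + 4)} (hx : (x : ℕ) < 2) : (cycAlt : alternatingGroup _).1 x = x :=
  Fin.cycleIcc_of_lt (Fin.lt_def.2 (lt_of_lt_of_le hx cycStart_le.2))

theorem cycAlt_succ (x : ℕ) (h1 : ((cycStart k : Fin (k + 4)) : ℕ) ≤ x) (h2 : x + 1 < k + 4) :
    (cycAlt : alternatingGroup (Fin (k + 4))).1 ⟨x, by omega⟩ = ⟨x + 1, h2⟩ := by
  show Fin.cycleIcc (cycStart k) (Fin.last (k + 3)) ⟨x, _⟩ = _
  rw [Fin.cycleIcc_of_ge_of_lt (Fin.le_def.2 h1) (Fin.lt_def.2 (by simp [Fin.val_last]; omega))]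
  refine Fin.ext ?_
  simp [Fin.val_add, Nat.mod_eq_of_lt h2]

/-- The setwise stabiliser of `{0, 1}`, inside the even permutations, that the two elements generate. -/
def stabGen (k : ℕ) : Subgroup (Perm (Fin (k + 4))) :=
  Subgroup.closure {(flipAlt : alternatingGroup (Fin (k + 4))).1, (cycAlt : alternatingGroup (Fin (k + 4))).1}

theorem flip_mem : (flipAlt : alternatingGroup (Fin (k + 4))).1 ∈ stabGen k :=
  Subgroup.subset_closure (Or.inl rfl)

theorem cyc_mem : (cycAlt : alternatingGroup (Fin (k + 4))).1 ∈ stabGen k :=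
  Subgroup.subset_closure (Or.inr rfl)

/-- Consecutive three-cycles from the first point of the long cycle on. -/
theorem window_mem {s : ℕ} (hs : s + 2 < k + 4) (hk : ((cycStart k : Fin (k + 4)) : ℕ) ≤ 3) (hs2 : 3 ≤ s)
    (h : cyc3 (⟨3, by omega⟩ : Fin (k + 4)) ⟨4, by omega⟩ ⟨5, by omega⟩ ∈ stabGen k) :
    cyc3 (⟨s, by omega⟩ : Fin (k + 4)) ⟨s + 1, by omega⟩ ⟨s + 2, hs⟩ ∈ stabGen k := by
  revert hs h
  induction s, hs2 using Nat.le_induction with
  | base => exact fun _ h => h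
  | succ s hs3 ih =>
    intro hs h
    have := mul_mem (mul_mem cyc_mem (ih (by omega) h)) (inv_mem cyc_mem)
    rw [conj_cyc3, cycAlt_succ s (by omega) (by omega), cycAlt_succ (s + 1) (by omega) (by omega),
      cycAlt_succ (s + 2) (by omega) (by omega)] at this
    exact this

theorem conj_mem_of_cyc3 {a b d a' b' d' : Fin (k + 4)} {g : Perm (Fin (k + 4))} (hg : g ∈ stabGen k)
    (h : cyc3 a b d ∈ stabGen k) (ha : g a = a') (hb : g b = b') (hd : g d = d') :
    cyc3 a' b' d' ∈ stabGen k := by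
  have := mul_mem (mul_mem hg h) (inv_mem hg)
  rwa [conj_cyc3, ha, hb, hd] at this

theorem cyc234_mem (hk : 1 ≤ k) :
    cyc3 (⟨2, by omega⟩ : Fin (k + 4)) ⟨3, by omega⟩ ⟨4, by omega⟩ ∈ stabGen k := by
  have hg := flip_mem (k := k)
  have h := mul_mem hg (mul_mem (mul_mem cyc_mem hg) (inv_mem cyc_mem))
  have h2 : (⟨2, by omega⟩ : Fin (k + 4)) = 2 := Fin.ext val_two'.symm
  have h3 : (⟨3, by omega⟩ : Fin (k + 4)) = 3 := Fin.ext val_three'.symm
  set τ := (cycAlt : alternatingGroup (Fin (k + 4))).1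
  have e01 : ∀ x : Fin (k + 4), (x : ℕ) < 2 → τ x = x := fun x hx => cycAlt_fix hx
  have hconj : τ * (swap 0 1 * swap 2 3) * τ⁻¹ = swap 0 1 * swap (τ 2) (τ 3) := by
    have hw : ∀ x y, τ * swap x y * τ⁻¹ = swap (τ x) (τ y) := fun x y => by
      rw [mul_swap_eq_swap_mul, mul_inv_cancel_right]
    rw [show τ * (swap 0 1 * swap 2 3) * τ⁻¹ = (τ * swap 0 1 * τ⁻¹) * (τ * swap 2 3 * τ⁻¹) by group,
      hw, hw, e01 0 (by simp), e01 1 (by simp)]
  have h34 : τ 3 = (⟨4, by omega⟩ : Fin (k + 4)) := by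
    rw [← h3]; exact cycAlt_succ 3 cycStart_le.1 (by omega)
  have key : ∀ a : Fin (k + 4), a ≠ 0 → a ≠ 1 → ∀ b, b ≠ 0 → b ≠ 1 →
      (swap (0 : Fin (k + 4)) 1 * swap 2 3) * (swap 0 1 * swap a b) = swap 2 3 * swap a b := by
    intro a a0 a1 b b0 b1
    have hcm : swap (2 : Fin (k + 4)) 3 * swap 0 1 = swap 0 1 * swap 2 3 := by
      refine Perm.Disjoint.commute ?_ |>.eq
      intro x
      by_cases hx : x = 0 ∨ x = 1
      · left
        rcases hx with rfl | rfl
        · exact swap_apply_of_ne_of_ne zero_ne_two' zero_ne_three'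
        · exact swap_apply_of_ne_of_ne one_ne_two' one_ne_three'
      · right
        simp only [not_or] at hx
        exact swap_apply_of_ne_of_ne hx.1 hx.2
    rw [mul_assoc, ← mul_assoc (swap 2 3), hcm, ← mul_assoc, ← mul_assoc, swap_mul_self, one_mul]
  rw [show (flipAlt : alternatingGroup (Fin (k + 4))).1 = swap 0 1 * swap 2 3 from rfl, hconj, h34] at h
  have ne0 : ∀ x : ℕ, 2 ≤ x → ∀ hx : x < k + 4, (⟨x, hx⟩ : Fin (k + 4)) ≠ 0 ∧ (⟨x, hx⟩ : Fin (k + 4)) ≠ 1 :=
    fun x h2 hx => ⟨fun e => by have := congrArg Fin.val e; simp at this; omega,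
      fun e => by have := congrArg Fin.val e; simp at this; omega⟩
  rcases Nat.even_or_odd k with hp | hp
  · have t2 : τ 2 = 2 := Fin.cycleIcc_of_lt (Fin.lt_def.2 (by simp [cycStart, hp, mod_two', mod_three']))
    rw [t2, key 2 (Ne.symm zero_ne_two') (Ne.symm one_ne_two') _ (ne0 4 (by omega) _).1 (ne0 4 (by omega) _).2,
      swap_comm (2 : Fin (k + 4)) 3] at h
    have := inv_mem h
    rw [show swap (3 : Fin (k + 4)) 2 * swap 2 ⟨4, _⟩ = cyc3 3 2 ⟨4, by omega⟩ from rfl,
      cyc3_inv (Ne.symm two_ne_three') (by rw [← h3]; exact fin_ne _ _ (by omega))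
        (by rw [← h2]; exact fin_ne _ _ (by omega)), ← h2, ← h3] at this
    exact this
  · have t2 : τ 2 = 3 := by
      have := cycAlt_succ (k := k) 2 (by simp [cycStart, Nat.not_even_iff_odd.2 hp, mod_two']) (by omega)
      rw [h2] at this
      exact this.trans (Fin.ext (by simp [mod_three']))
    rw [t2, key 3 (Ne.symm zero_ne_three') (Ne.symm one_ne_three') _ (ne0 4 (by omega) _).1
      (ne0 4 (by omega) _).2] at h
    rw [h2, h3]
    exact h

theorem star_mem (m : ℕ) (h4 : 4 ≤ m) (hm : m < k + 4) :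
    cyc3 (⟨2, by omega⟩ : Fin (k + 4)) ⟨3, by omega⟩ ⟨m, hm⟩ ∈ stabGen k := by
  induction m, h4 using Nat.le_induction with
  | base => exact cyc234_mem (by omega)
  | succ m h4 ih =>
    have hi := ih (by omega)
    have hA := cyc234_mem (k := k) (by omega)
    set two : Fin (k + 4) := ⟨2, by omega⟩
    set three : Fin (k + 4) := ⟨3, by omega⟩
    set four : Fin (k + 4) := ⟨4, by omega⟩
    have n23 : two ≠ three := fin_ne _ _ (by omega)
    have n24 : two ≠ four := fin_ne _ _ (by omega)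
    have n34 : three ≠ four := fin_ne _ _ (by omega)
    have hst : ((cycStart k : Fin (k + 4)) : ℕ) ≤ 3 := cycStart_le.1
    -- the cycle `(2, m, m + 1)`
    have h2m : cyc3 two ⟨m, by omega⟩ ⟨m + 1, hm⟩ ∈ stabGen k := by
      rcases Nat.even_or_odd k with hp | hp
      · have t2 : (cycAlt : alternatingGroup (Fin (k + 4))).1 two = two :=
          Fin.cycleIcc_of_lt (Fin.lt_def.2 (by simp [cycStart, hp, two, mod_three']))
        have main : ∀ r, 3 ≤ r → ∀ hr : r + 1 < k + 4,
            cyc3 two ⟨r, by omega⟩ ⟨r + 1, hr⟩ ∈ stabGen k := by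
          intro r hr3
          induction r, hr3 using Nat.le_induction with
          | base => exact fun _ => hA
          | succ r hr3 ihr =>
            exact fun hr => conj_mem_of_cyc3 cyc_mem (ihr (by omega)) t2
              (cycAlt_succ r (by omega) (by omega)) (cycAlt_succ (r + 1) (by omega) hr)
        exact main m (by omega) hm
      · have h345 : cyc3 three four (⟨5, by omega⟩ : Fin (k + 4)) ∈ stabGen k :=
          conj_mem_of_cyc3 cyc_mem hA
            (cycAlt_succ 2 (by simp [cycStart, Nat.not_even_iff_odd.2 hp, mod_two']) (by omega))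
            (cycAlt_succ 3 hst (by omega)) (cycAlt_succ 4 (by omega) (by omega))
        rcases eq_or_lt_of_le h4 with h | h
        · subst h
          -- `(3 4 5)` moved by `(2 3 4)`
          have h425 := conj_mem_of_cyc3 (a' := four) (b' := two) (d' := (⟨5, by omega⟩ : Fin (k + 4))) hA h345
            (cyc3_apply_mid n34 n24) cyc3_apply_right
            (cyc3_apply_other (fin_ne _ _ (by omega)) (fin_ne _ _ (by omega)) (fin_ne _ _ (by omega)))
          have := inv_mem h425
          rwa [cyc3_inv (Ne.symm n24) (fin_ne _ _ (by omega)) (fin_ne _ _ (by omega))] at this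
        obtain ⟨r, rfl⟩ : ∃ r, m = r + 1 := ⟨m - 1, by omega⟩
        have hw := window_mem (k := k) (s := r) (by omega) hst (by omega) h345
        -- move `r` onto `2`, fixing the two larger points
        rcases eq_or_lt_of_le (show 4 ≤ r by omega) with h' | h'
        · subst h'
          refine conj_mem_of_cyc3 hA hw cyc3_apply_right ?_ ?_
          · exact cyc3_apply_other (fin_ne _ _ (by omega)) (fin_ne _ _ (by omega)) (fin_ne _ _ (by omega))
          · exact cyc3_apply_other (fin_ne _ _ (by omega)) (fin_ne _ _ (by omega)) (fin_ne _ _ (by omega))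
        have h23r : cyc3 two three (⟨r, by omega⟩ : Fin (k + 4)) ∈ stabGen k := by
          -- from `(2 3 m)` and the window at `r - 1`
          obtain ⟨u, rfl⟩ : ∃ u, r = u + 1 := ⟨r - 1, by omega⟩
          have hw' := window_mem (k := k) (s := u) (by omega) hst (by omega) h345
          refine conj_mem_of_cyc3 (inv_mem hw') hi ?_ ?_ ?_
          · rw [Perm.inv_eq_iff_eq]
            exact (cyc3_apply_other (fin_ne _ _ (by omega)) (fin_ne _ _ (by omega)) (fin_ne _ _ (by omega))).symm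
          · rw [Perm.inv_eq_iff_eq]
            exact (cyc3_apply_other (fin_ne _ _ (by omega)) (fin_ne _ _ (by omega)) (fin_ne _ _ (by omega))).symm
          · rw [Perm.inv_eq_iff_eq]
            exact (cyc3_apply_mid (fin_ne _ _ (by omega)) (fin_ne _ _ (by omega))).symm
        refine conj_mem_of_cyc3 h23r hw cyc3_apply_right ?_ ?_
        · exact cyc3_apply_other (fin_ne _ _ (by omega)) (fin_ne _ _ (by omega)) (fin_ne _ _ (by omega))
        · exact cyc3_apply_other (fin_ne _ _ (by omega)) (fin_ne _ _ (by omega)) (fin_ne _ _ (by omega))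
    have h32 := conj_mem_of_cyc3 (a' := three) (b' := two) (d' := (⟨m + 1, hm⟩ : Fin (k + 4))) hi h2m
      (cyc3_apply_left n23 (fin_ne _ _ (by omega))) cyc3_apply_right
      (cyc3_apply_other (fin_ne _ _ (by omega)) (fin_ne _ _ (by omega)) (fin_ne _ _ (by omega)))
    have := inv_mem h32
    rwa [cyc3_inv (Ne.symm n23) (fin_ne _ _ (by omega)) (fin_ne _ _ (by omega))] at this

/-- An even permutation fixing `0` and `1` lies in the subgroup of the two elements. -/
theorem mem_stabGen {σ : Perm (Fin (k + 4))} (hσ : Perm.sign σ = 1) (h0 : σ 0 = 0) (h1 : σ 1 = 1) :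
    σ ∈ stabGen k := by
  classical
  let p : Fin (k + 4) → Prop := fun x => 2 ≤ (x : ℕ)
  let e : Bool ⊕ Fin k ≃ {x : Fin (k + 4) // p x} :=
    { toFun := fun x => match x with
        | .inl false => ⟨⟨2, by omega⟩, le_rfl⟩
        | .inl true => ⟨⟨3, by omega⟩, show 2 ≤ 3 by omega⟩
        | .inr i => ⟨⟨i + 4, by omega⟩, show 2 ≤ (i : ℕ) + 4 by omega⟩
      invFun := fun x => if h2 : (x.1 : ℕ) = 2 then .inl false else if h3 : (x.1 : ℕ) = 3 then .inl true else
        .inr ⟨(x.1 : ℕ) - 4, by have := x.1.isLt; have : 2 ≤ (x.1 : ℕ) := x.2; omega⟩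
      left_inv := by
        rintro ((_ | _) | i)
        · simp
        · simp
        · simp only
          rw [dif_neg (by omega), dif_neg (by omega)]
          exact congrArg Sum.inr (Fin.ext (by simp))
      right_inv := by
        rintro ⟨x, hx⟩
        have hx2 : 2 ≤ (x : ℕ) := hx
        simp only
        split_ifs with a b
        · exact Subtype.ext (Fin.ext a.symm)
        · exact Subtype.ext (Fin.ext b.symm)
        · exact Subtype.ext (Fin.ext (show ((x : ℕ) - 4) + 4 = x by omega)) }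
  let E : Perm (Bool ⊕ Fin k) →* Perm (Fin (k + 4)) :=
    (Perm.ofSubtype (p := p)).comp e.permCongrHom.toMonoidHom
  have hsw : ∀ a b, E (swap a b) = swap (e a : Fin (k + 4)) (e b) := fun a b => by
    show Perm.ofSubtype (e.permCongr (swap a b)) = _
    rw [show e.permCongr (swap a b) = swap (e a) (e b) from ?_, Perm.ofSubtype_swap_eq]
    ext x
    simp only [Equiv.permCongr_apply, swap_apply_def, e.symm_apply_eq]
    split_ifs <;> simp
  have hpres : ∀ x, p (σ x) ↔ p x := by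
    intro x
    have f : ∀ y : Fin (k + 4), ¬ p y → y = 0 ∨ y = 1 := fun y hy => by
      have : (y : ℕ) < 2 := not_le.1 hy
      rcases Nat.lt_or_ge (y : ℕ) 1 with h | h
      · exact Or.inl (Fin.ext (by rw [Fin.val_zero]; omega))
      · exact Or.inr (Fin.ext (by rw [val_one']; omega))
    constructor
    · intro hp
      by_contra hx
      rcases f x hx with rfl | rfl
      · rw [h0] at hp; exact hx hp
      · rw [h1] at hp; exact hx hp
    · intro hp
      by_contra hx
      rcases f _ hx with h | h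
      · have hx0 : x = 0 := σ.injective (h.trans h0.symm)
        subst hx0; simp [p] at hp
      · have hx1 : x = 1 := σ.injective (h.trans h1.symm)
        subst hx1; simp [p] at hp
  set τ' : Perm {x // p x} := σ.subtypePerm hpres
  have hτ : Perm.ofSubtype τ' = σ := Perm.ofSubtype_subtypePerm hpres fun x hx => by
    by_contra hp
    have : (x : ℕ) < 2 := not_le.1 hp
    rcases Nat.lt_or_ge (x : ℕ) 1 with h | h
    · rw [show x = 0 from Fin.ext (by rw [Fin.val_zero]; omega)] at hx; exact hx h0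
    · rw [show x = 1 from Fin.ext (by rw [val_one']; omega)] at hx; exact hx h1
  have hmem : e.symm.permCongr τ' ∈ alternatingGroup (Bool ⊕ Fin k) := by
    show Perm.sign _ = 1
    rw [Perm.sign_permCongr, ← Perm.sign_ofSubtype, hτ, hσ]
  rw [← ShortPres.closure_star] at hmem
  have hE : E (e.symm.permCongr τ') = σ := by
    show Perm.ofSubtype (e.permCongr (e.symm.permCongr τ')) = σ
    rw [show e.permCongr (e.symm.permCongr τ') = τ' from ?_, hτ]
    ext x; simp [Equiv.permCongr_apply]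
  rw [← hE]
  refine (show Subgroup.closure (Set.range (ShortPres.star : Fin k → _)) ≤ (stabGen k).comap E from ?_) hmem
  rw [Subgroup.closure_le]
  rintro _ ⟨i, rfl⟩
  show E (swap _ _ * swap _ _) ∈ stabGen k
  rw [map_mul, hsw, hsw]
  have h := inv_mem (star_mem (k := k) (i + 4) (by omega) (by omega))
  have e' : swap (e (Sum.inl false) : Fin (k + 4)) (e (Sum.inr i)) * swap (e (Sum.inl false) : Fin (k + 4))
      (e (Sum.inl true)) = cyc3 (⟨i + 4, by omega⟩ : Fin (k + 4)) ⟨2, by omega⟩ ⟨3, by omega⟩ := by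
    show swap (⟨2, _⟩ : Fin (k + 4)) ⟨i + 4, _⟩ * swap ⟨2, _⟩ ⟨3, _⟩ = _
    rw [cyc3, swap_comm]
  rw [e']
  have := star_mem (k := k) (i + 4) (by omega) (by omega)
  have hc : cyc3 (⟨i + 4, by omega⟩ : Fin (k + 4)) ⟨2, by omega⟩ ⟨3, by omega⟩ =
      cyc3 (⟨2, by omega⟩ : Fin (k + 4)) ⟨3, by omega⟩ ⟨i + 4, by omega⟩ := by
    have n1 : (⟨2, by omega⟩ : Fin (k + 4)) ≠ ⟨3, by omega⟩ := fin_ne _ _ (by omega)
    have n2 : (⟨2, by omega⟩ : Fin (k + 4)) ≠ ⟨i + 4, by omega⟩ := fin_ne _ _ (by omega)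
    have n3 : (⟨3, by omega⟩ : Fin (k + 4)) ≠ ⟨i + 4, by omega⟩ := fin_ne _ _ (by omega)
    refine Perm.ext fun x => ?_
    simp only [cyc3, Perm.mul_apply, swap_apply_def]
    split_ifs <;> simp_all
  rw [hc]; exact this

/-- An even permutation preserving `{0, 1}` lies in the subgroup of the two elements. -/
theorem mem_stabGen_swap {σ : Perm (Fin (k + 4))} (hσ : Perm.sign σ = 1) (h0 : σ 0 = 1) (h1 : σ 1 = 0) :
    σ ∈ stabGen k := by
  have hf : Perm.sign (flipAlt : alternatingGroup (Fin (k + 4))).1 = 1 := flipAlt.2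
  have e0 : (flipAlt : alternatingGroup (Fin (k + 4))).1 1 = 0 := by
    simp [flipAlt, swap_apply_of_ne_of_ne one_ne_two' one_ne_three']
  have e1 : (flipAlt : alternatingGroup (Fin (k + 4))).1 0 = 1 := by
    simp [flipAlt, swap_apply_of_ne_of_ne zero_ne_two' zero_ne_three']
  have h := mem_stabGen (σ := (flipAlt : alternatingGroup (Fin (k + 4))).1 * σ)
    (by rw [map_mul, hf, hσ]; rfl) (by rw [Perm.mul_apply, h0, e0]) (by rw [Perm.mul_apply, h1, e1])
  simpa using mul_mem (inv_mem flip_mem) h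

/-- A subgroup of the even permutations that is normalised and contains a three-cycle is everything. -/
theorem eq_top_of_cyc3_mem {N : Subgroup (alternatingGroup (Fin (k + 4)))} [hN : N.Normal]
    (h : c012 ∈ N) : N = ⊤ := by
  rw [eq_top_iff, ← alternatingGroup.closure_isThreeCycles_eq_top, Subgroup.closure_le]
  intro g hg
  have h3 : (c012 : alternatingGroup (Fin (k + 4))).1.IsThreeCycle := by
    rw [show (c012 : alternatingGroup (Fin (k + 4))).1 = swap 0 1 * swap 1 2 from rfl, swap_comm 0 1]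
    exact Perm.isThreeCycle_swap_mul_swap_same (Ne.symm zero_ne_one') one_ne_two' zero_ne_two'
  obtain ⟨π, hπ⟩ := isConj_iff.1 (Perm.isConj_iff_cycleType_eq.2 ((show (c012 : alternatingGroup
    (Fin (k + 4))).1.cycleType = {3} from h3).trans (show g.1.cycleType = {3} from hg).symm))
  rcases Int.units_eq_one_or (Perm.sign π) with hs | hs
  · have := hN.conj_mem _ h ⟨π, hs⟩
    rwa [show (⟨π, hs⟩ : alternatingGroup (Fin (k + 4))) * c012 * ⟨π, hs⟩⁻¹ = g from Subtype.ext hπ] at this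
  · have hs' : Perm.sign (π * swap (0 : Fin (k + 4)) 1) = 1 := by
      rw [map_mul, hs, Perm.sign_swap zero_ne_one']; rfl
    have hm := hN.conj_mem _ (inv_mem h) ⟨π * swap 0 1, hs'⟩
    have e : (⟨π * swap 0 1, hs'⟩ : alternatingGroup (Fin (k + 4))) * c012⁻¹ * ⟨π * swap 0 1, hs'⟩⁻¹ = g := by
      apply Subtype.ext
      show π * swap 0 1 * (cyc3 0 1 2)⁻¹ * (π * swap 0 1)⁻¹ = g.1
      rw [cyc3_inv zero_ne_one' zero_ne_two' one_ne_two', ← hπ,
        show (c012 : alternatingGroup (Fin (k + 4))).1 = cyc3 0 1 2 from rfl, conj_cyc3, conj_cyc3]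
      simp [swap_apply_of_ne_of_ne (Ne.symm zero_ne_two') (Ne.symm one_ne_two')]
    rwa [e] at hm

end CfsgLib.SLnPres
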