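import Cfsg.Agent.Lib.SL3Pres.Relators
import Cfsg.Agent.Lib.SL3Pres.Setup

/-!
Relators for `SL₂(F)` in a group with an extra element acting as `diag(1, ω)`: one of the relators for odd
characteristic follows from the others and the action of that element.
-/

set_option autoImplicit false
set_option linter.unusedSectionVars false

namespace CfsgLib.SLnPres

open Polynomial CfsgLib.SL2Pres CfsgLib.SL3Pres
open scoped MatrixGroups

universe u

variable {F : Type u} [Field F] [Finite F] {p : ℕ} [Fact p.Prime] [Algebra (ZMod p) F]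

local notation "gU" => (FreeGroup.of (0 : Fin 3) : FreeGroup (Fin 3))
local notation "gH" => (FreeGroup.of (1 : Fin 3) : FreeGroup (Fin 3))
local notation "gW" => (FreeGroup.of (2 : Fin 3) : FreeGroup (Fin 3))

/-- At most `m` relators that present `SL₂(F)` given an element acting as `diag(1, ω)`. -/
def IsPre (ω : Fˣ) (Pi : (ZMod p)[X]) (m : ℕ) : Prop :=
  ∃ R : List (FreeGroup (Fin 3)), R.length ≤ m ∧ (∀ r ∈ R, FreeGroup.lift (fS ω) r = 1) ∧
    ∀ (G : Type) [Group G] (f : Fin 3 → G) (K : G), Commute K (f 1) →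
      K * f 0 * K⁻¹ = pval (f 0) (f 1) 1 Pi → K * f 2 * K⁻¹ = (f 1)⁻¹ * f 2 →
      (∀ r ∈ R, FreeGroup.lift f r = 1) → ∃ φ : SL(2, F) →* G, ∀ i, φ (fS ω i) = f i

theorem isPre_of_isRelators {ω : Fˣ} {Pi : (ZMod p)[X]} {m : ℕ} (h : IsRelators ω m) :
    IsPre ω Pi m := by
  obtain ⟨R, hm, hS, hG⟩ := h
  exact ⟨R, hm, hS, fun G _ f _ _ _ _ hf => hG G f hf⟩

/-- Odd characteristic: three relators besides those between `u` and `h`. -/
theorem pre_odd_of_borel (hp : p ≠ 2) {ω : Fˣ} (hω : ∀ x : Fˣ, x ∈ Subgroup.zpowers ω) {Pi : (ZMod p)[X]}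
    (hPi : aeval ((ω : F) ^ 2) Pi = ((ω⁻¹ : Fˣ) : F)) {b : ℕ}
    (B : List (FreeGroup (Fin 3))) (hB4 : B.length ≤ b) (hBS : ∀ r ∈ B, FreeGroup.lift (fS ω) r = 1)
    (hBG : ∀ (G : Type) [Group G] (f : Fin 3 → G), (∀ r ∈ B, FreeGroup.lift f r = 1) →
      f 1 ^ orderOf ω = 1 → ∃ X : F → G, IsUnip (f 0) (f 1) ((ω : F) ^ 2) X) :
    IsPre ω Pi (b + 3) := by
  classical
  let _ : Fintype F := Fintype.ofFinite F
  have : CharP F p := (Algebra.charP_iff (ZMod p) F p).1 (ZMod.charP p)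
  set q := Fintype.card F with hq
  have hord : orderOf ω = q - 1 := by
    rw [orderOf_eq_card_of_forall_mem_zpowers hω, Nat.card_units, Nat.card_eq_fintype_card]
  obtain ⟨N, hqN⟩ : ∃ N, q = 2 * N + 1 := FiniteField.odd_card_of_char_ne_two (by rwa [ringChar.eq F p]) |>
    fun h => Nat.odd_iff.2 h
  have hN1 : 1 ≤ N := by have := Fintype.one_lt_card (α := F); omega
  have hωN : ω ^ N = -1 := by
    have h1 : ((ω ^ N : Fˣ) : F) * (ω ^ N : Fˣ) = 1 := by
      rw [← Units.val_mul, ← pow_add, show N + N = orderOf ω by omega, pow_orderOf_eq_one, Units.val_one]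
    rcases mul_self_eq_one_iff.1 h1 with h | h
    · exact absurd (Nat.le_of_dvd hN1 (orderOf_dvd_of_pow_eq_one (Units.ext h))) (by omega)
    · exact Units.ext (by rw [h]; simp)
  obtain ⟨k, hk⟩ := exists_pow_eq hω (negInv ω)
  obtain ⟨Pω, hPω⟩ := aeval_sq_surjective (p := p) hω (ω : F)
  obtain ⟨Pc, hPc⟩ := aeval_sq_surjective (p := p) hω ((negInv ω : Fˣ) : F)
  let rWH : FreeGroup (Fin 3) := gW * gH * gW⁻¹ * gH
  let r1 : FreeGroup (Fin 3) := gW * gU * gW * (gU⁻¹ * gH ^ N * gW * gU⁻¹)⁻¹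
  let rν : FreeGroup (Fin 3) := gW * pval gU gH 1 Pω * gW *
    (pval gU gH 1 Pc * gH ^ k * gW * pval gU gH 1 Pc)⁻¹
  -- the identities in `SL₂`
  have hS := isUnip_SL (F := F) ω
  have hWH : FreeGroup.lift (fS ω) rWH = 1 := by
    simp only [rWH, map_mul, map_inv, FreeGroup.lift_apply_of]
    show wS * dS ω * wS⁻¹ * dS ω = 1
    rw [wS_dS, ← map_mul, inv_mul_cancel, map_one]
  have h1S : FreeGroup.lift (fS ω) r1 = 1 := by
    simp only [r1, map_mul, map_inv, map_pow, FreeGroup.lift_apply_of]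
    show wS * xS 1 * wS * ((xS 1)⁻¹ * dS ω ^ N * wS * (xS 1)⁻¹)⁻¹ = 1
    have h := wS_xS_wS (1 : Fˣ)
    rw [show negInv (1 : Fˣ) = -1 by simp [negInv], Units.val_neg, Units.val_one, hS.neg] at h
    rw [h, ← map_pow, hωN, mul_inv_cancel]
  have hwwS : FreeGroup.lift (fS ω) (gW * gW * (gH ^ N)⁻¹) = 1 := by
    simp only [map_mul, map_inv, map_pow, FreeGroup.lift_apply_of]
    show wS * wS * (dS ω ^ N)⁻¹ = 1
    rw [← map_pow, hωN, wS_mul_wS, mul_inv_cancel]
  have hνS : FreeGroup.lift (fS ω) rν = 1 := by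
    simp only [rν, map_mul, map_inv, map_pow, map_pval, FreeGroup.lift_apply_of]
    show wS * pval (xS 1) (dS ω) 1 Pω * wS *
      (pval (xS 1) (dS ω) 1 Pc * dS ω ^ k * wS * pval (xS 1) (dS ω) 1 Pc)⁻¹ = 1
    rw [hS.pval_eq, hS.pval_eq, pow_one, hPω, hPc, ← map_pow, hk, wS_xS_wS, mul_inv_cancel]
  have hL2 : ∀ {G : Type} [Group G] {h w : G}, w * h * w⁻¹ = h⁻¹ → w * w = h ^ N → h ^ (2 * N) = 1 := by
    intro G _ h w hwh hww
    have e : w * h ^ N * w⁻¹ = (h ^ N)⁻¹ := by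
      rw [← MulAut.conj_apply, map_pow, MulAut.conj_apply, hwh, inv_pow]
    rw [← hww, ← mul_assoc, mul_inv_cancel_right, hww] at e
    rw [two_mul, pow_add]
    nth_rewrite 1 [e]
    exact inv_mul_cancel _
  set R₀ := B ++ [rWH, gW * gW * (gH ^ N)⁻¹, r1] with hR₀
  have hR₀S : ∀ r ∈ R₀ ++ [rν], FreeGroup.lift (fS ω) r = 1 := by
    intro r hr
    simp only [hR₀, List.mem_append, List.mem_cons, List.not_mem_nil, or_false] at hr
    rcases hr with (hr | rfl | rfl | rfl) | rfl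
    exacts [hBS r hr, hWH, hwwS, h1S, hνS]
  refine ⟨R₀, by simp [hR₀]; omega, fun r hr => hR₀S r (List.mem_append_left _ hr), ?_⟩
  intro G _ f K hK1 hK2 hK3 hf
  -- the relator left out
  have hfν : FreeGroup.lift f rν = 1 := by
    have hfB : ∀ r ∈ B, FreeGroup.lift f r = 1 := fun r hr => hf r (by simp [hR₀, hr])
    have e1 := hf rWH (by simp [hR₀])
    have e2 := hf (gW * gW * (gH ^ N)⁻¹) (by simp [hR₀])
    have e3 := hf r1 (by simp [hR₀])
    simp only [rWH, r1, map_mul, map_inv, map_pow, FreeGroup.lift_apply_of] at e1 e2 e3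
    have hwh : f 2 * f 1 * (f 2)⁻¹ = (f 1)⁻¹ := eq_inv_of_mul_eq_one_left e1
    have hL : f 1 ^ orderOf ω = 1 := by
      rw [hord, show q - 1 = 2 * N by omega]; exact hL2 hwh (mul_inv_eq_one.1 e2)
    obtain ⟨X, hX⟩ := hBG G f hfB hL
    rw [hX.pval_eq, pow_one, hPi] at hK2
    have hKX : ∀ a, K * X a * K⁻¹ = X (((ω⁻¹ : Fˣ) : F) * a) := by
      let A : AddSubmonoid F :=
        { carrier := {a | K * X a * K⁻¹ = X (((ω⁻¹ : Fˣ) : F) * a)}
          zero_mem' := by simp [hX.zero]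
          add_mem' := fun {a b} ha hb => by
            simp only [Set.mem_ofPred_eq] at ha hb ⊢
            rw [mul_add, hX.add, hX.add, ← ha, ← hb]; group }
      refine mem_of_sq_closed hω A ?_ (fun a ha => ?_)
      · show K * X 1 * K⁻¹ = _
        rw [mul_one, hX.one]; exact hK2
      · show K * X ((ω : F) ^ 2 * a) * K⁻¹ = _
        have ha' : K * X a * K⁻¹ = X (((ω⁻¹ : Fˣ) : F) * a) := ha
        rw [← hX.conj, show K * (f 1 * X a * (f 1)⁻¹) * K⁻¹ = (K * f 1) * X a * (K * f 1)⁻¹ by group,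
          hK1.eq, show f 1 * K * X a * (f 1 * K)⁻¹ = f 1 * (K * X a * K⁻¹) * (f 1)⁻¹ by group, ha', hX.conj]
        congr 1; ring
    have hkN : f 1 ^ (k + 1) = f 1 ^ N := by
      have h : ω ^ (k + 1) = ω ^ N := by
        rw [pow_succ, hk, hωN]
        exact Units.ext (by simp [negInv])
      rw [← pow_mod_orderOf ω (k + 1), ← pow_mod_orderOf ω N] at h
      have hm := pow_injOn_Iio_orderOf (Nat.mod_lt _ (orderOf_pos ω)) (Nat.mod_lt _ (orderOf_pos ω)) h
      rw [← Nat.mod_add_div (k + 1) (orderOf ω), ← Nat.mod_add_div N (orderOf ω), hm, pow_add, pow_add,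
        pow_mul, pow_mul, hL, one_pow, one_pow]
    simp only [rν, map_mul, map_inv, map_pow, map_pval, FreeGroup.lift_apply_of]
    rw [hX.pval_eq, hX.pval_eq, pow_one, hPω, hPc, mul_inv_eq_one]
    have hi : (((ω⁻¹ : Fˣ) : F) * -1) = ((negInv ω : Fˣ) : F) := by simp [negInv]
    have hn : (f 0)⁻¹ = X (-1) := by rw [hX.neg, hX.one]
    have e4 := congrArg (fun z => K * z * K⁻¹) (mul_inv_eq_one.1 e3)
    rw [hn, ← hX.one,
      show K * (f 2 * X 1 * f 2) * K⁻¹ = (K * f 2 * K⁻¹) * (K * X 1 * K⁻¹) * (K * f 2 * K⁻¹) by group,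
      show K * (X (-1) * f 1 ^ N * f 2 * X (-1)) * K⁻¹ =
        (K * X (-1) * K⁻¹) * (K * f 1 ^ N * K⁻¹) * (K * f 2 * K⁻¹) * (K * X (-1) * K⁻¹) by group,
      hKX, hKX, hi, mul_one, hK3, (hK1.pow_right N).eq, mul_inv_cancel_right] at e4
    have hx : f 1 * X ((ω⁻¹ : Fˣ) : F) * (f 1)⁻¹ = X (ω : F) := by
      rw [hX.conj]
      congr 1
      rw [Units.val_inv_eq_inv_val]; field_simp
    calc f 2 * X (ω : F) * f 2
        = f 2 * (f 1 * X ((ω⁻¹ : Fˣ) : F) * (f 1)⁻¹) * f 2 := by rw [hx]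
      _ = (f 1)⁻¹ * ((f 1 * (f 2 * f 1 * (f 2)⁻¹)) * f 2) * X ((ω⁻¹ : Fˣ) : F) * ((f 1)⁻¹ * f 2) := by group
      _ = (f 1)⁻¹ * f 2 * X ((ω⁻¹ : Fˣ) : F) * ((f 1)⁻¹ * f 2) := by rw [hwh, mul_inv_cancel, one_mul]
      _ = X (negInv ω : Fˣ) * f 1 ^ N * ((f 1)⁻¹ * f 2) * X (negInv ω : Fˣ) := e4
      _ = X (negInv ω : Fˣ) * f 1 ^ k * f 2 * X (negInv ω : Fˣ) := by rw [← hkN, pow_succ]; group
  -- the bound for the group presented by all the relators
  set R := R₀ ++ [rν] with hR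
  have hfR : ∀ r ∈ R, FreeGroup.lift f r = 1 := by
    intro r hr
    rcases List.mem_append.1 hr with hr | hr
    · exact hf r hr
    · rw [List.mem_singleton.1 hr]; exact hfν
  set P := PresentedGroup.of (rels := {r | r ∈ R}) with hP
  have hl : ∀ r ∈ R, FreeGroup.lift P r = 1 := fun r hr => lift_of_eq_one hr
  simp only [hR, hR₀, List.mem_append, List.mem_cons, List.not_mem_nil, or_false] at hl
  have e1 := hl rWH (by simp)
  have e2 := hl (gW * gW * (gH ^ N)⁻¹) (by simp)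
  have e3 := hl r1 (by simp)
  have e4 := hl rν (by simp)
  simp only [rWH, r1, rν, map_mul, map_inv, map_pow, map_pval, FreeGroup.lift_apply_of] at e1 e2 e3 e4
  have hwh : P 2 * P 1 * (P 2)⁻¹ = (P 1)⁻¹ := eq_inv_of_mul_eq_one_left e1
  have h2N := hL2 hwh (mul_inv_eq_one.1 e2)
  have hL : P 1 ^ orderOf ω = 1 := by rw [hord, show q - 1 = 2 * N by omega, h2N]
  obtain ⟨X, hX⟩ := hBG _ P (fun r hr => hl r (Or.inl (Or.inl hr))) hL
  rw [hX.pval_eq, hX.pval_eq, pow_one, hPω, hPc] at e4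
  obtain ⟨hfin, hcard⟩ := card_le_of_rels hω (range_three P ▸ PresentedGroup.closure_range_of _) hX hωN hk hL
    hwh (mul_inv_eq_one.1 e2) (mul_inv_eq_one.1 e3) (Or.inr (mul_inv_eq_one.1 e4))
  rw [Nat.card_eq_fintype_card (α := F)] at hcard
  have hcard' : Nat.card (PresentedGroup {r | r ∈ R}) ≤ Nat.card SL(2, F) := by
    refine hcard.trans ?_
    have h4 := Nat.le_of_dvd (by omega) (orderOf_dvd_of_pow_eq_one h2N)
    rw [ClassicalLinear.card_SL_two hq.symm]
    calc _ ≤ 2 * N * q * (q + 1) := by gcongr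
      _ = q * (q ^ 2 - 1) := by
        rw [hqN, show (2 * N + 1) ^ 2 = 2 * N * (2 * N + 2) + 1 by ring, Nat.add_sub_cancel]; ring
  let ψ := PresentedGroup.toGroup (rels := {r | r ∈ R}) (f := fS ω) hR₀S
  have hψ : ∀ i, ψ (P i) = fS ω i := fun i => PresentedGroup.toGroup.of (h := hR₀S)
  have hsurj : Function.Surjective ψ := by
    rw [← MonoidHom.range_eq_top, eq_top_iff, ← closure_fS p hω, Subgroup.closure_le]
    rintro x ⟨i, rfl⟩
    exact ⟨P i, hψ i⟩
  let e := MulEquiv.ofBijective ψ (hsurj.bijective_of_nat_card_le hcard')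
  refine ⟨(PresentedGroup.toGroup (rels := {r | r ∈ R}) (f := f) hfR).comp e.symm.toMonoidHom, fun i => ?_⟩
  have : e.symm (fS ω i) = P i := by
    rw [MulEquiv.symm_apply_eq]; exact (hψ i).symm
  simp only [MonoidHom.comp_apply, MulEquiv.coe_toMonoidHom, this]
  exact PresentedGroup.toGroup.of (h := hfR)

/-- Odd characteristic: seven relators. -/
theorem pre_odd (hp : p ≠ 2) {ω : Fˣ} (hω : ∀ x : Fˣ, x ∈ Subgroup.zpowers ω) {Pi : (ZMod p)[X]}
    (hPi : aeval ((ω : F) ^ 2) Pi = ((ω⁻¹ : Fˣ) : F)) : IsPre ω Pi 7 := by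
  obtain ⟨B, hB4, hBS, hBG⟩ := exists_borel_odd (F := F) hp hω
  exact pre_odd_of_borel hp hω hPi B hB4 hBS hBG

/-- Odd characteristic and degree at most two: six relators. -/
theorem pre_odd_small (hp : p ≠ 2) {ω : Fˣ} (hω : ∀ x : Fˣ, x ∈ Subgroup.zpowers ω) {Pi : (ZMod p)[X]}
    (hPi : aeval ((ω : F) ^ 2) Pi = ((ω⁻¹ : Fˣ) : F)) (hn3 : Module.finrank (ZMod p) F < 3) :
    IsPre ω Pi 6 := by
  classical
  have : Module.Finite (ZMod p) F := Module.Finite.of_finite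
  set g : F := (ω : F) ^ 2 with hgdef
  have hg := aeval_sq_surjective (p := p) hω
  have hS : IsUnip (xS 1) (dS ω) g (xS : F → SL(2, F)) := isUnip_SL ω
  set n := Module.finrank (ZMod p) F with hn
  have hn0 : 0 < n := Module.finrank_pos
  have hdeg : (Polynomial.X ^ n - minpoly (ZMod p) g).natDegree < n := by
    have hint : IsIntegral (ZMod p) g := IsIntegral.of_finite _ g
    have hd := natDegree_minpoly_eq hg
    have hlt : (Polynomial.X ^ n - minpoly (ZMod p) g).degree < (n : WithBot ℕ) := by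
      refine lt_of_lt_of_eq (Polynomial.degree_sub_lt_left ?_ (pow_ne_zero _ Polynomial.X_ne_zero) ?_)
        (Polynomial.degree_X_pow n)
      · rw [Polynomial.degree_X_pow, Polynomial.degree_eq_natDegree (minpoly.ne_zero hint), hd]
      · rw [Polynomial.leadingCoeff_X_pow, (minpoly.monic hint).leadingCoeff]
    rcases eq_or_ne (Polynomial.X ^ n - minpoly (ZMod p) g) 0 with h0 | h0
    · rw [h0, natDegree_zero]; exact hn0
    · exact (Polynomial.natDegree_lt_iff_degree_lt h0).2 hlt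
  refine pre_odd_of_borel hp hω hPi (b := 3)
    [gU ^ p, gU * (gH * gU * gH⁻¹) * gU⁻¹ * (gH * gU * gH⁻¹)⁻¹,
      gH ^ n * gU * (gH ^ n)⁻¹ * (pval gU gH 1 (Polynomial.X ^ n - minpoly (ZMod p) g))⁻¹]
    (by simp) ?_ (fun G _ f hf _ => ?_)
  · simp only [List.forall_mem_cons, List.not_mem_nil, false_implies, implies_true, and_true, map_mul, map_inv,
      map_pow, map_pval, FreeGroup.lift_apply_of]
    show xS 1 ^ p = 1 ∧ xS 1 * (dS ω * xS 1 * (dS ω)⁻¹) * (xS 1)⁻¹ * (dS ω * xS 1 * (dS ω)⁻¹)⁻¹ = 1 ∧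
      dS ω ^ n * xS 1 * (dS ω ^ n)⁻¹ * (pval (xS 1) (dS ω) 1 _)⁻¹ = 1
    refine ⟨?_, ?_, ?_⟩
    · rw [← hS.nsmul, smul_char, hS.zero]
    · rw [hS.conj, mul_one, hS.comm 1 g, mul_inv_cancel_right, mul_inv_cancel]
    · rw [hS.pow_conj, hS.pval_eq, pow_one, map_sub, map_pow, aeval_X, minpoly.aeval, sub_zero, mul_one,
        mul_inv_cancel]
  · simp only [List.forall_mem_cons, List.not_mem_nil, false_implies, implies_true, and_true, map_mul, map_inv,
      map_pow, map_pval, FreeGroup.lift_apply_of] at hf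
    obtain ⟨h1, h2, h3⟩ := hf
    exact unip_small hg (by omega) hdeg h1 (commutatorElement_eq_one_iff_commute.1 h2) (mul_inv_eq_one.1 h3)

end CfsgLib.SLnPres
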