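import Cfsg.Agent.Lib.ShortPres.Main

/-!
The alternating groups on four and five points have two-generator presentations with three and four relations.
-/

set_option autoImplicit false

namespace CfsgLib.SLnPres

open Equiv ShortPres

theorem alt_four' : HasPres ↥(alternatingGroup (Fin 4)) 2 3 := by
  obtain ⟨e⟩ := alt_iso (α := Bool ⊕ Fin 2) (n := 4) (by simp)
  exact alt_four.congr e

theorem alt_five : HasPres ↥(alternatingGroup (Fin 5)) 2 4 := by
  obtain ⟨e⟩ := alt_iso (α := Bool ⊕ Fin 3) (n := 5) (by simp)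
  refine HasPres.congr ?_ e
  set μ : Perm (Fin 3) := Equiv.addRight 1 with hμ
  set z : Perm (Bool ⊕ Fin 3) := ShortPres.star 0 with hz
  set t : Perm (Bool ⊕ Fin 3) := evenify μ with ht
  have hμs : Perm.sign μ = 1 := by rw [hμ]; decide
  have ht0 : t (Sum.inl false) = Sum.inl false ∧ t (Sum.inl true) = Sum.inl true := by
    simp [t, evenify, hμs]
  have htc : ∀ i : Fin 3, t * ShortPres.star i * t⁻¹ = ShortPres.star (i + 1) := fun i =>
    conj_star ht0.1 ht0.2 (by simp [t, evenify_apply_inr, hμ])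
  -- a word for `t` in the three conjugates of `z`
  let gz : FreeGroup (Fin 2) := FreeGroup.of 0
  let gt : FreeGroup (Fin 2) := FreeGroup.of 1
  let τ : FreeGroup (Fin 2) →* Perm (Bool ⊕ Fin 3) := FreeGroup.lift ![z, t]
  let X : Fin 3 → FreeGroup (Fin 2) := ![gz, gt * gz * gt⁻¹, gt * (gt * gz * gt⁻¹) * gt⁻¹]
  have hX : ∀ i, τ (X i) = ShortPres.star i := by
    intro i
    have h1 : t * z * t⁻¹ = ShortPres.star 1 := htc 0
    have h2 : t * ShortPres.star 1 * t⁻¹ = ShortPres.star 2 := htc 1
    fin_cases i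
    · simp [X, gz, τ, z]
    · simpa [X, gz, gt, τ] using h1
    · have h3 : t * (t * z * t⁻¹) * t⁻¹ = ShortPres.star 2 := by rw [h1, h2]
      simpa [X, gz, gt, τ] using h3
  obtain ⟨W, hW, hWt⟩ := exists_word τ (s := Set.range X) (v := t) (by
    rw [← Set.range_comp, show τ ∘ X = (ShortPres.star : Fin 3 → Perm (Bool ⊕ Fin 3)) from funext hX]
    exact evenify_mem μ)
  refine hasPres_of_list τ [gz ^ 3, gt ^ 3, (gz * (gt * gz * gt⁻¹)) ^ 2, gt⁻¹ * W] le_rfl ?_ _ ?_ ?_
  · intro l hl
    simp only [List.mem_cons, List.not_mem_nil, or_false] at hl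
    rcases hl with rfl | rfl | rfl | rfl
    · simp [τ, gz, z, star_pow_three]
    · have h3 : μ ^ 3 = 1 := by rw [hμ]; decide
      simp only [τ, gt, map_pow, FreeGroup.lift_apply_of]
      show t ^ 3 = 1
      rw [ht, ← map_pow, h3, map_one]
    · have h := star_pair (show (0 : Fin 3) ≠ 1 by decide)
      rw [← hX 0, ← hX 1, ← map_mul, ← map_pow] at h
      exact h
    · rw [map_mul, map_inv, hWt]
      simp [τ, gt]
  · refine range_alt _ (fun i => ⟨X i, hX i⟩) (fun i => ?_)
    fin_cases i
    · simp [z, sign_star]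
    · simpa [τ] using sign_evenify μ
  · intro G _ φ ψ hsurj hkill _
    simp only [List.mem_cons, List.not_mem_nil, or_false, forall_eq_or_imp, forall_eq, map_pow, map_mul,
      map_inv] at hkill
    obtain ⟨k1, k2, k3, k4⟩ := hkill
    have ki : φ gt * (φ gt * (φ gt * φ gz * (φ gt)⁻¹) * (φ gt)⁻¹) * (φ gt)⁻¹ = φ gz := by
      calc _ = (φ gt * φ gt * φ gt) * φ gz * (φ gt * φ gt * φ gt)⁻¹ := by group
        _ = _ := by rw [show φ gt * φ gt * φ gt = 1 by rw [← k2, pow_succ, sq], one_mul, inv_one, mul_one]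
    have hpow : ∀ a : G, a ^ 3 = 1 → (φ gt * a * (φ gt)⁻¹) ^ 3 = 1 := fun a ha => by
      rw [conj_pow, ha, mul_one, mul_inv_cancel]
    have hsq : ∀ a b : G, (a * b) ^ 2 = 1 →
        (φ gt * a * (φ gt)⁻¹ * (φ gt * b * (φ gt)⁻¹)) ^ 2 = 1 := fun a b h => by
      rw [show φ gt * a * (φ gt)⁻¹ * (φ gt * b * (φ gt)⁻¹) = φ gt * (a * b) * (φ gt)⁻¹ by group,
        conj_pow, h, mul_one, mul_inv_cancel]
    have p01 := k3
    have p12 := hsq _ _ p01
    have p20 := hsq _ _ p12
    rw [ki] at p20
    obtain ⟨h1, h2⟩ := bound_of_family (closure_two φ hsurj) (x := φ ∘ X)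
      (fun i => by
        fin_cases i
        · simpa [X] using k1
        · simpa [X] using hpow _ k1
        · simpa [X] using hpow _ (hpow _ k1))
      (fun i j h => by
        fin_cases i <;> fin_cases j <;>
          first
            | exact absurd rfl h
            | (simpa [X] using p01)
            | (simpa [X] using p12)
            | (simpa [X] using p20)
            | (simpa [X] using sq_swap p01)
            | (simpa [X] using sq_swap p12)
            | (simpa [X] using sq_swap p20))
      (Subgroup.subset_closure ⟨0, rfl⟩)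
      (by
        rw [inv_mul_eq_one.1 k4]
        exact Set.range_comp φ X ▸ MonoidHom.map_closure φ (Set.range X) ▸ Subgroup.mem_map_of_mem φ hW)
    refine ⟨h1, ?_⟩
    have := card_alt_star (Fin 3) (Fintype.card_fin 3)
    change 2 * Nat.card G ≤ (3 + 2).factorial at h2
    omega

end CfsgLib.SLnPres
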