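import Cfsg.Agent.Lib.SLnPres.Main
import Cfsg.Agent.Lib.SLnPres.SmallAlt
import Cfsg.Agent.Lib.Sp4Pres.Main

/-!
Presentations of `SL_n(F)` and `PSL_n(F)` for `n ≥ 4`.
-/

set_option autoImplicit false
set_option linter.unusedSectionVars false

namespace CfsgLib.SLnPres

open CfsgLib.ShortPres (HasPres)
open scoped MatrixGroups

variable {F : Type*} [Field F] [Finite F]

/-- A central quotient by a cyclic centre costs one relation. -/
theorem hasPres_psl {ι : Type*} [Fintype ι] [DecidableEq ι] {a r : ℕ}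
    (h : HasPres (Matrix.SpecialLinearGroup ι F) a r) :
    HasPres (Matrix.ProjectiveSpecialLinearGroup ι F) a (r + 1) := by
  obtain ⟨R, hR, ⟨e⟩⟩ := h
  have hc : IsCyclic (Subgroup.center (Matrix.SpecialLinearGroup ι F)) :=
    isCyclic_of_surjective
      (Matrix.SpecialLinearGroup.center_equiv_rootsOfUnity (n := ι) (R := F)).symm.toMonoidHom
      (Matrix.SpecialLinearGroup.center_equiv_rootsOfUnity (n := ι) (R := F)).symm.surjective
  obtain ⟨g, hg⟩ := hc.exists_generator
  obtain ⟨w, hw⟩ := (e.surjective.comp (PresentedGroup.mk_surjective _)) g.1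
  have hw' : e (PresentedGroup.mk _ w) = g.1 := hw
  obtain ⟨R', hR', e'⟩ := Sp4Pres.exists_quotient_presentation R e w
    (fun c hc => by
      rw [hw']
      obtain ⟨n, hn⟩ := hg ⟨c, hc⟩
      exact ⟨n, congrArg Subtype.val hn⟩)
    (by rw [hw']; exact g.2)
  exact ⟨R', hR'.trans (by omega), e'⟩

/-- Twenty-three relations on five generators. -/
theorem hasPres_five {n : ℕ} (hn : 4 ≤ n) : HasPres (Matrix.SpecialLinearGroup (Fin n) F) 5 23 := by
  obtain ⟨k, rfl⟩ : ∃ k, n = k + 4 := ⟨n - 4, by omega⟩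
  exact (presentation k (ShortPres.alt_pres _)).mono (by split <;> omega)

theorem hasPres_four : HasPres (Matrix.SpecialLinearGroup (Fin 4) F) 5 18 :=
  (presentation 0 alt_four').mono (by simp)

theorem hasPres_fifth : HasPres (Matrix.SpecialLinearGroup (Fin 5) F) 5 21 :=
  (presentation 1 alt_five).mono (by simp)

end CfsgLib.SLnPres
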