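import Cfsg.Agent.Lib.SL3Pres.Main
import Cfsg.Agent.Lib.SLnPres.PreRel

/-!
Fourteen relators on `u, h, w, c, g` giving a homomorphism out of `SL₃(F)` on which `g` exchanges the two
root groups of `SL₂(F)`, when the orders of `c` and `g` divide three and two.
-/

set_option autoImplicit false
set_option linter.unusedSectionVars false

namespace CfsgLib.SLnPres

open Polynomial CfsgLib.SL2Pres CfsgLib.SL3Pres
open scoped MatrixGroups commutatorElement

universe u

variable {F : Type u} [Field F] [Finite F] {p : ℕ} [Fact p.Prime] [Algebra (ZMod p) F]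

local notation "gU" => (FreeGroup.of (0 : Fin 4) : FreeGroup (Fin 4))
local notation "gH" => (FreeGroup.of (1 : Fin 4) : FreeGroup (Fin 4))
local notation "gW" => (FreeGroup.of (2 : Fin 4) : FreeGroup (Fin 4))
local notation "gC" => (FreeGroup.of (3 : Fin 4) : FreeGroup (Fin 4))

/-- At most `m` relators presenting `SL₃(F)` together with the order of `c`. -/
def IsRel3 (ω : Fˣ) (m : ℕ) : Prop :=
  ∃ R : List (FreeGroup (Fin 4)), R.length ≤ m ∧ (∀ r ∈ R, FreeGroup.lift (f3 ω) r = 1) ∧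
    ∀ (G : Type) [Group G] (f : Fin 4 → G), f 3 * f 3 * f 3 = 1 →
      (∀ r ∈ R, FreeGroup.lift f r = 1) → ∃ φ : SL(3, F) →* G, ∀ i, φ (f3 ω i) = f i

/-- The five relators linking `SL₂(F)` and the element of order three. -/
noncomputable def link5 (Pi : (ZMod p)[X]) : List (FreeGroup (Fin 4)) :=
  [gW * gC * gW * (gC * gC)⁻¹,
    gH * (gC * gH * gC⁻¹) * (gC * gH * gC⁻¹ * gH)⁻¹,
    gH * (gC * gU * gC⁻¹) * gH⁻¹ * (gC * pval gU gH 1 Pi * gC⁻¹)⁻¹,
    gH * (gC * gW * gC⁻¹) * gH⁻¹ * (gC * (gH⁻¹ * gW) * gC⁻¹)⁻¹,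
    ⁅gU, gC * gU * gC⁻¹⁆ * (gC * (gC * (gW⁻¹ * gU * gW) * gC⁻¹) * gC⁻¹)⁻¹]

theorem conj_cube {G : Type*} [Group G] {c : G} (h3 : c * c * c = 1) (a : G) :
    (c * c) * a * (c * c)⁻¹ = c⁻¹ * a * c := by
  rw [show c * c = c⁻¹ from eq_inv_of_mul_eq_one_left h3, inv_inv]

/-- Relators for `SL₂`, the linking relators, and further ones that give all relations. -/
theorem isRel3_of {ω : Fˣ} (hω : ∀ x : Fˣ, x ∈ Subgroup.zpowers ω) {ω' : Fˣ} (e : ω' = ω) {m : ℕ}
    {Pi : (ZMod p)[X]} (h2 : IsPre ω Pi m) (hPi : aeval ((ω : F) ^ 2) Pi = ((ω⁻¹ : Fˣ) : F))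
    (extra : List (FreeGroup (Fin 4))) (hextra : ∀ r ∈ extra, FreeGroup.lift (f3 ω) r = 1)
    (hrels : ∀ (H : Type) [Group H] (S : Setup ω H) (f : Fin 4 → H), Gens S f →
      (∀ r ∈ extra, FreeGroup.lift f r = 1) → S.Rels) {n : ℕ} (hn : m + 5 + extra.length ≤ n) :
    IsRel3 ω' n := by
  classical
  subst e
  obtain ⟨R, hRm, hRS, hRφ⟩ := h2
  set L := R.map (FreeGroup.map Fin.castSucc) ++ link5 Pi ++ extra with hL
  have hf3 : f3 ω' ∘ Fin.castSucc = (emb : SL(2, F) →* SL(3, F)) ∘ fS ω' := by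
    funext i; fin_cases i <;> rfl
  have hrel : ∀ r ∈ L, FreeGroup.lift (f3 ω') r = 1 := by
    intro r hr
    simp only [hL, List.mem_append, List.mem_map] at hr
    rcases hr with (⟨r, hr, rfl⟩ | hr) | hr
    · rw [lift_map_castSucc, hf3]
      have h : FreeGroup.lift ((emb : SL(2, F) →* SL(3, F)) ∘ fS ω') =
          (emb : SL(2, F) →* SL(3, F)).comp (FreeGroup.lift (fS ω')) :=
        FreeGroup.ext_hom _ _ fun a => by simp
      rw [h, MonoidHom.comp_apply, hRS r hr, map_one]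
    · revert r
      have hf := model_gens hω
      set S := modelSetup hω
      simp only [link5, List.forall_mem_cons, List.not_mem_nil, false_implies, implies_true, and_true,
        map_mul, map_inv, map_commutatorElement, map_pval, FreeGroup.lift_apply_of, hf.u, hf.h, hf.w, hf.c,
        pval_φ, hPi, winv_xS', mul_inv_eq_one]
      refine ⟨S.wcw, S.torus.eq, S.hX, ?_, S.hXX⟩
      have h := S.D_conj_v ω'
      rw [Setup.T_apply, Setup.v, ← map_mul] at h
      simp only [Setup.D, MonoidHom.comp_apply, map_inv, Setup.rot_apply, Setup.w] at h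
      exact h
    · exact hextra r hr
  refine ⟨L, by simp [hL, link5]; omega, hrel, fun G _ f h3 hf => ?_⟩
  set rels := gC * gC * gC :: L with hrels'
  set P := PresentedGroup.of (rels := {r | r ∈ rels}) with hP
  have hl : ∀ r ∈ rels, FreeGroup.lift P r = 1 := fun r hr => lift_of_eq_one hr
  have h3P : P 3 * P 3 * P 3 = 1 := by
    have h := hl (gC * gC * gC) (by simp [hrels'])
    simpa only [map_mul, FreeGroup.lift_apply_of] using h
  have hlink : ∀ r ∈ link5 Pi, FreeGroup.lift P r = 1 := fun r hr => hl r (by simp [hrels', hL, hr])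
  simp only [link5, List.forall_mem_cons, List.not_mem_nil, false_implies, implies_true, and_true,
    map_mul, map_inv, map_commutatorElement, map_pval, FreeGroup.lift_apply_of, mul_inv_eq_one] at hlink
  obtain ⟨hwcw, htor, hX, hV, hXX⟩ := hlink
  set K := (P 3 * P 3) * P 1 * (P 3 * P 3)⁻¹ with hK
  have hKH : Commute K (P 1) := by
    have h := Setup.conj_commute (g := P 3 * P 3) (show Commute (P 1) (P 3 * P 1 * (P 3)⁻¹) from htor)
    rw [show P 3 * P 3 * (P 3 * P 1 * (P 3)⁻¹) * (P 3 * P 3)⁻¹ =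
      (P 3 * P 3 * P 3) * P 1 * (P 3 * P 3 * P 3)⁻¹ by group, h3P, one_mul, inv_one, mul_one] at h
    exact h
  have hKU : K * P 0 * K⁻¹ = pval (P 0) (P 1) 1 Pi := by
    rw [hK, conj_cube h3P]
    calc (P 3)⁻¹ * P 1 * P 3 * P 0 * ((P 3)⁻¹ * P 1 * P 3)⁻¹
        = (P 3)⁻¹ * (P 1 * (P 3 * P 0 * (P 3)⁻¹) * (P 1)⁻¹) * P 3 := by group
      _ = _ := by rw [hX]; group
  have hKW : K * P 2 * K⁻¹ = (P 1)⁻¹ * P 2 := by
    rw [hK, conj_cube h3P]
    calc (P 3)⁻¹ * P 1 * P 3 * P 2 * ((P 3)⁻¹ * P 1 * P 3)⁻¹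
        = (P 3)⁻¹ * (P 1 * (P 3 * P 2 * (P 3)⁻¹) * (P 1)⁻¹) * P 3 := by group
      _ = _ := by rw [hV]; group
  obtain ⟨φ, hφ⟩ := hRφ _ (P ∘ Fin.castSucc) K hKH hKU hKW fun r hr => by
    rw [← lift_map_castSucc]
    exact hl _ (by simp only [hrels', hL, List.mem_cons, List.mem_append, List.mem_map]
                   exact Or.inr (Or.inl (Or.inl ⟨r, hr, rfl⟩)))
  have hu : P 0 = φ (xS 1) := (hφ 0).symm
  have hh : P 1 = φ (dS ω') := (hφ 1).symm
  have hw : P 2 = φ wS := (hφ 2).symm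
  have hKX : K * φ (xS 1) * K⁻¹ = φ (xS ((ω'⁻¹ : Fˣ) : F)) := by
    rw [← hu, hKU, hu, hh, pval_φ, hPi]
  have hKW' : K * φ wS * K⁻¹ = φ ((dS ω')⁻¹ * wS) := by
    rw [← hw, hKW, hw, hh, map_mul, map_inv]
  have hKY : K * φ (yS 1) * K⁻¹ = φ (yS (ω' : F)) := by
    have e : yS (1 : F) = wS * (xS 1)⁻¹ * wS⁻¹ := by
      rw [← SL3Pres.xS_neg, wS_conj_xS, neg_neg]
    have e' : yS (ω' : F) = (dS ω')⁻¹ * wS * (xS ((ω'⁻¹ : Fˣ) : F))⁻¹ * ((dS ω')⁻¹ * wS)⁻¹ := by
      rw [← SL3Pres.xS_neg, show (dS ω')⁻¹ * wS * xS (-((ω'⁻¹ : Fˣ) : F)) * ((dS ω')⁻¹ * wS)⁻¹ =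
        (dS ω')⁻¹ * (wS * xS (-((ω'⁻¹ : Fˣ) : F)) * wS⁻¹) * dS ω' by group, wS_conj_xS, neg_neg]
      have h := dS_yS ω'⁻¹ ((ω'⁻¹ : Fˣ) : F)
      rw [map_inv, inv_inv] at h
      rw [h]; congr 1
      rw [inv_inv, Units.val_inv_eq_inv_val]; field_simp
    simp only [map_mul, map_inv] at hKW'
    simp only [e, e', map_mul, map_inv]
    rw [← hKW', ← hKX]
    group
  let S : Setup ω' (PresentedGroup {r | r ∈ rels}) :=
    { gen := hω, φ := φ, c := P 3, c_cube := h3P
      wcw := by rw [← hw]; exact hwcw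
      torus := by rw [← hh]; exact htor
      hX := by rw [← hu, ← hh, ← hPi, ← pval_φ, ← hu, ← hh]; exact hX
      hY := by
        rw [← hKY, hK, conj_cube h3P, ← hh]
        group
      hXX := by
        rw [← winv_xS', ← hu, ← hw]; exact hXX }
  have hgens : Gens S P := ⟨hu, hh, hw, rfl⟩
  have hR : S.Rels := hrels _ S P hgens fun r hr => hl r (by simp [hrels', hL, hr])
  have hgen : Subgroup.closure (Set.range S.φ ∪ {S.c}) = ⊤ := by
    rw [eq_top_iff, ← PresentedGroup.closure_range_of, Subgroup.closure_le]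
    rintro _ ⟨i, rfl⟩
    refine Subgroup.subset_closure ?_
    fin_cases i
    exacts [Or.inl ⟨_, hu.symm⟩, Or.inl ⟨_, hh.symm⟩, Or.inl ⟨_, hw.symm⟩, Or.inr rfl]
  obtain ⟨hfin, hcard⟩ := S.finite_and_card_le hR hgen
  rw [← card_SL_three] at hcard
  have hrel' : ∀ r ∈ {r | r ∈ rels}, FreeGroup.lift (f3 ω') r = 1 := by
    intro r hr
    rcases List.mem_cons.1 (show r ∈ rels from hr) with rfl | hr
    · simp only [map_mul, FreeGroup.lift_apply_of]; exact cyc_cube
    · exact hrel r hr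
  let ψ := PresentedGroup.toGroup (rels := {r | r ∈ rels}) (f := f3 ω') hrel'
  have hψ : ∀ i, ψ (P i) = f3 ω' i := fun i => PresentedGroup.toGroup.of (h := hrel')
  have hsurj : Function.Surjective ψ := by
    rw [← MonoidHom.range_eq_top, eq_top_iff, ← closure_emb_cyc (F := F), Subgroup.closure_le]
    rintro g (⟨s, rfl⟩ | rfl)
    · have : s ∈ ψ.range.comap emb := by
        refine ((closure_fS p hω).ge.trans ((Subgroup.closure_le _).2 ?_)) (Subgroup.mem_top s)
        rintro _ ⟨i, rfl⟩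
        exact ⟨P i.castSucc, (hψ _).trans (congrFun hf3 i)⟩
      exact this
    · exact ⟨P 3, hψ 3⟩
  let e := MulEquiv.ofBijective ψ (hsurj.bijective_of_nat_card_le hcard)
  have hf' : ∀ r ∈ {r | r ∈ rels}, FreeGroup.lift f r = 1 := by
    intro r hr
    rcases List.mem_cons.1 (show r ∈ rels from hr) with rfl | hr
    · simp only [map_mul, FreeGroup.lift_apply_of]; exact h3
    · exact hf r hr
  refine ⟨(PresentedGroup.toGroup (rels := {r | r ∈ rels}) (f := f) hf').comp e.symm.toMonoidHom, fun i => ?_⟩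
  have : e.symm (f3 ω' i) = P i := by
    rw [MulEquiv.symm_apply_eq]; exact (hψ i).symm
  simp only [MonoidHom.comp_apply, MulEquiv.coe_toMonoidHom, this]
  exact PresentedGroup.toGroup.of (h := hf')

theorem lift_rowRel_model {ω : Fˣ} (hω : ∀ x : Fˣ, x ∈ Subgroup.zpowers ω) :
    ∀ r ∈ [rowRel], FreeGroup.lift (f3 ω) r = 1 := by
  simp only [List.forall_mem_cons, List.not_mem_nil, false_implies, implies_true, and_true]
  exact (lift_rowRel (model_gens hω)).2 (model_row hω 1 1)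

/-- Twelve relators besides the cube of `c`, or thirteen over the field of four elements. -/
theorem isRel3 {ω : Fˣ} (hω : ∀ x : Fˣ, x ∈ Subgroup.zpowers ω) :
    IsRel3 ω (if Nat.card F = 4 then 13 else 12) := by
  obtain ⟨p, hp⟩ := CharP.exists F
  have : Fact p.Prime := ⟨CharP.char_is_prime F p⟩
  let _ : Algebra (ZMod p) F := ZMod.algebra F p
  obtain ⟨Pi, hPi⟩ := aeval_sq_surjective (p := p) hω ((ω⁻¹ : Fˣ) : F)
  obtain ⟨Po, hPo⟩ := aeval_sq_surjective (p := p) hω (ω : F)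
  rcases eq_or_ne p 2 with rfl | hp2
  · have h5 : IsPre ω Pi 5 := isPre_of_isRelators (relators_even hω)
    by_cases hq : Nat.card F = 4
    · refine isRel3_of hω rfl h5 hPi (rowRel :: fourRels Po) ?_ ?_ (by simp [fourRels, hq])
      · rw [List.forall_mem_cons]
        exact ⟨lift_rowRel_model hω _ (by simp), (lift_fourRels (model_gens hω) hPo).2
          ⟨model_row hω _ _, model_good hω _ _⟩⟩
      · intro H _ S f hf hex
        rw [List.forall_mem_cons, lift_rowRel hf, lift_fourRels hf hPo] at hex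
        exact S.rels_of_four hq hex.1 hex.2.1 hex.2.2
    · refine isRel3_of hω rfl h5 hPi [rowRel] (lift_rowRel_model hω) ?_ (by simp [hq])
      intro H _ S f hf hex
      exact S.rels_of_row hq ((lift_rowRel hf).1 (hex _ (by simp)))
  have hq4 : Nat.card F ≠ 4 := by
    intro h
    have hc : ((4 : ℕ) : F) = 0 := by
      let _ : Fintype F := Fintype.ofFinite F
      rw [← h, Nat.card_eq_fintype_card]; exact FiniteField.cast_card_eq_zero F
    exact hp2 ((Nat.prime_dvd_prime_iff_eq Fact.out Nat.prime_two).1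
      ((Fact.out : p.Prime).dvd_of_dvd_pow (n := 2) ((CharP.cast_eq_zero_iff F p 4).1 hc)))
  by_cases hn : Module.finrank (ZMod p) F < 3
  · refine isRel3_of hω rfl (pre_odd_small hp2 hω hPi hn) hPi [rowRel] (lift_rowRel_model hω) ?_
      (by simp [hq4])
    intro H _ S f hf hex
    exact S.rels_of_row hq4 ((lift_rowRel hf).1 (hex _ (by simp)))
  · refine isRel3_of hω rfl (pre_odd hp2 hω hPi) hPi [] (by simp) ?_ (by simp [hq4])
    intro H _ S f _ _
    let _ : Fintype F := Fintype.ofFinite F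
    have h27 : 27 ≤ Fintype.card F := by
      have : Module.Finite (ZMod p) F := Module.Finite.of_finite
      rw [← Nat.card_eq_fintype_card, Module.natCard_eq_pow_finrank (K := ZMod p), Nat.card_zmod]
      have h3 : 3 ≤ p := by have := (Fact.out : p.Prime).two_le; omega
      calc 27 = 3 ^ 3 := by norm_num
        _ ≤ p ^ 3 := Nat.pow_le_pow_left h3 3
        _ ≤ _ := Nat.pow_le_pow_right (by omega) (by omega)
    have h2 : (2 : F) ≠ 0 := fun h => hp2 ((Nat.prime_dvd_prime_iff_eq Fact.out Nat.prime_two).1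
      ((CharP.cast_eq_zero_iff F p 2).1 (by exact_mod_cast h)))
    obtain ⟨x, y, z, hx, hy, hz, h⟩ := exists_fermat h2 h27
    exact S.rels_of_row hq4 (S.row_of_fermat hx hy hz h)

end CfsgLib.SLnPres
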