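import Cfsg.Agent.Lib.SLnPres.Perm
import Cfsg.Agent.Lib.KnownSimple.SteinbergCount
import Cfsg.Agent.Lib.ClassicalLinear.Generation
import Cfsg.Agent.Lib.ClassicalLinear.Sylow
import Cfsg.Agent.Lib.SL3Pres.Comm

/-!
A group generated by an image of `SL₃(F)` and one of the alternating group on `k + 4` points, linked by
a few relations, satisfies the Steinberg relations and so is no bigger than `SL_{k+4}(F)`.
-/

set_option autoImplicit false
set_option linter.unusedSectionVars false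

namespace CfsgLib.SLnPres

open Equiv
open scoped MatrixGroups commutatorElement

variable {F : Type*} [Field F] [Finite F] {k : ℕ}

/-- An elementary matrix of `SL₃(F)`. -/
def e3 (a b : Fin 3) (t : F) : SL(3, F) :=
  if h : a ≠ b then Matrix.SpecialLinearGroup.transvection h t else 1

theorem e3_eq {a b : Fin 3} (h : a ≠ b) (t : F) : e3 a b t = Matrix.SpecialLinearGroup.transvection h t :=
  dif_pos h

theorem e3_add {a b : Fin 3} (h : a ≠ b) (t u : F) : e3 a b (t + u) = e3 a b t * e3 a b u := by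
  simp only [e3_eq h, Matrix.SpecialLinearGroup.transvection_add]

theorem e3_comm {a b c d : Fin 3} (hab : a ≠ b) (hcd : c ≠ d) (had : a ≠ d) (hbc : b ≠ c) (t u : F) :
    Commute (e3 a b t) (e3 c d u) := by
  rw [e3_eq hab, e3_eq hcd]
  refine Subtype.ext ?_
  show Matrix.transvection a b t * Matrix.transvection c d u =
    Matrix.transvection c d u * Matrix.transvection a b t
  simp only [Matrix.transvection, mul_add, add_mul, one_mul, mul_one,
    Matrix.single_mul_single_of_ne _ _ _ _ hbc, Matrix.single_mul_single_of_ne _ _ _ _ had.symm]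
  abel

theorem e3_chev {a b c : Fin 3} (hab : a ≠ b) (hbc : b ≠ c) (hac : a ≠ c) (t u : F) :
    ⁅e3 a b t, e3 b c u⁆ = e3 a c (t * u) := by
  rw [e3_eq hab, e3_eq hbc, e3_eq hac, ClassicalLinear.commutator_transvection hac hab hbc]

/-- The two scalings by a diagonal matrix. -/
theorem e3_scale {a b c : Fin 3} (hab : a ≠ b) (hca : c ≠ a) (hcb : c ≠ b) (s : F) (hs : s ≠ 0) (t : F) :
    (Matrix.SpecialLinearGroup.diag2n hab s hs * e3 a c t * (Matrix.SpecialLinearGroup.diag2n hab s hs)⁻¹ =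
        e3 a c (s * t)) ∧
      (Matrix.SpecialLinearGroup.diag2n hab s hs * e3 c b t * (Matrix.SpecialLinearGroup.diag2n hab s hs)⁻¹ =
        e3 c b (s * t)) := by
  constructor <;>
    (first | rw [e3_eq hca.symm, e3_eq hca.symm] | rw [e3_eq hcb, e3_eq hcb]) <;>
    rw [mul_inv_eq_iff_eq_mul] <;>
    refine Subtype.ext (ClassicalLinear.diagonal_mul_transvection _ _ _ ?_)
  · simp [hca, hcb]
  · simp [hca, hcb, hab.symm]
    field_simp

/-- The first three points. -/
def pt (a : Fin 3) : Fin (k + 4) := Fin.castLE (by omega) a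

theorem pt_zero : (pt 0 : Fin (k + 4)) = 0 := Fin.ext (by simp [pt])
theorem pt_one : (pt 1 : Fin (k + 4)) = 1 := Fin.ext (by simp [pt])
theorem pt_two : (pt 2 : Fin (k + 4)) = 2 := Fin.ext (by simp [pt, mod_two'])

theorem pt_ne {a b : Fin 3} (h : a ≠ b) : (pt a : Fin (k + 4)) ≠ pt b :=
  fun e => h (Fin.castLE_injective _ e)

theorem c012_pt (a : Fin 3) : (c012 : alternatingGroup (Fin (k + 4))).1 (pt a) = pt (a + 1) := by
  show cyc3 0 1 2 (pt a) = _
  fin_cases a
  · exact (congrArg _ pt_zero).trans ((cyc3_apply_left zero_ne_one' zero_ne_two').trans pt_one.symm)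
  · exact (congrArg _ pt_one).trans ((cyc3_apply_mid one_ne_two' zero_ne_two').trans pt_two.symm)
  · exact (congrArg _ pt_two).trans (cyc3_apply_right.trans pt_zero.symm)

/-- The permutation `(0 2)(1 3)`. -/
def sigma0 : alternatingGroup (Fin (k + 4)) :=
  ⟨swap 0 2 * swap 1 3, by
    show Perm.sign _ = 1
    rw [map_mul, Perm.sign_swap zero_ne_two', Perm.sign_swap one_ne_three']; rfl⟩

theorem sigma0_zero : (sigma0 : alternatingGroup (Fin (k + 4))).1 0 = 2 := by
  simp [sigma0, swap_apply_of_ne_of_ne zero_ne_one' zero_ne_three']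

theorem sigma0_one : (sigma0 : alternatingGroup (Fin (k + 4))).1 1 = 3 := by
  simp [sigma0, swap_apply_of_ne_of_ne (Ne.symm zero_ne_three') (Ne.symm two_ne_three')]

/-- The linked images of `SL₃(F)` and of the alternating group. -/
structure Setup (F : Type*) [Field F] (k : ℕ) (G : Type*) [Group G] where
  φ : SL(3, F) →* G
  ρ : alternatingGroup (Fin (k + 4)) →* G
  rot : ∀ (a b : Fin 3) (t : F), ρ c012 * φ (e3 a b t) * (ρ c012)⁻¹ = φ (e3 (a + 1) (b + 1) t)
  c_mem : ρ c012 ∈ φ.range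
  flip : ∀ t : F, ρ flipAlt * φ (e3 0 1 t) * (ρ flipAlt)⁻¹ = φ (e3 1 0 t) ∧
    ρ flipAlt * φ (e3 1 0 t) * (ρ flipAlt)⁻¹ = φ (e3 0 1 t)
  fix : ∀ t : F, Commute (ρ cycAlt) (φ (e3 0 1 t)) ∧ Commute (ρ cycAlt) (φ (e3 1 0 t))
  disj : Commute (φ (e3 0 1 1)) (ρ sigma0 * φ (e3 0 1 1) * (ρ sigma0)⁻¹)

namespace Setup

variable {G : Type*} [Group G] (S : Setup F k G)

/-- Conjugation by the image of a permutation. -/
def act : alternatingGroup (Fin (k + 4)) →* MulAut G := MulAut.conj.comp S.ρ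

theorem act_apply (σ : alternatingGroup (Fin (k + 4))) (g : G) : S.act σ g = S.ρ σ * g * (S.ρ σ)⁻¹ := rfl

theorem act_mul (σ τ : alternatingGroup (Fin (k + 4))) (g : G) : S.act (σ * τ) g = S.act σ (S.act τ g) := by
  rw [map_mul]; rfl

theorem stab {σ : alternatingGroup (Fin (k + 4))}
    (h : σ ∈ Subgroup.closure {(flipAlt : alternatingGroup (Fin (k + 4))), cycAlt}) :
    (σ.1 0 = 0 ∧ σ.1 1 = 1 ∧ ∀ t, S.act σ (S.φ (e3 0 1 t)) = S.φ (e3 0 1 t) ∧
        S.act σ (S.φ (e3 1 0 t)) = S.φ (e3 1 0 t)) ∨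
      (σ.1 0 = 1 ∧ σ.1 1 = 0 ∧ ∀ t, S.act σ (S.φ (e3 0 1 t)) = S.φ (e3 1 0 t) ∧
        S.act σ (S.φ (e3 1 0 t)) = S.φ (e3 0 1 t)) := by
  induction h using Subgroup.closure_induction with
  | mem x hx =>
    rcases hx with rfl | rfl
    · exact Or.inr ⟨by simp [flipAlt, swap_apply_of_ne_of_ne zero_ne_two' zero_ne_three'],
        by simp [flipAlt, swap_apply_of_ne_of_ne one_ne_two' one_ne_three'], S.flip⟩
    · refine Or.inl ⟨cycAlt_fix (by simp), cycAlt_fix (by rw [val_one']; omega), fun t => ⟨?_, ?_⟩⟩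
      · rw [act_apply, (S.fix t).1.eq, mul_inv_cancel_right]
      · rw [act_apply, (S.fix t).2.eq, mul_inv_cancel_right]
  | one => exact Or.inl ⟨rfl, rfl, fun t => by simp⟩
  | mul x y _ _ hx hy =>
    rcases hx with ⟨a, b, c⟩ | ⟨a, b, c⟩ <;> rcases hy with ⟨a', b', c'⟩ | ⟨a', b', c'⟩ <;>
      first
        | exact Or.inl ⟨by simp [a, b, a'], by simp [a, b, b'],
            fun t => ⟨by rw [act_mul, (c' t).1]; first | exact (c t).1 | exact (c t).2,
              by rw [act_mul, (c' t).2]; first | exact (c t).1 | exact (c t).2⟩⟩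
        | exact Or.inr ⟨by simp [a, b, a'], by simp [a, b, b'],
            fun t => ⟨by rw [act_mul, (c' t).1]; first | exact (c t).1 | exact (c t).2,
              by rw [act_mul, (c' t).2]; first | exact (c t).1 | exact (c t).2⟩⟩
  | inv x _ hx =>
    have e : ∀ {g g' : G}, S.act x g = g' → S.act x⁻¹ g' = g := fun {g g'} h => by
      rw [← h, ← act_mul, inv_mul_cancel, map_one]; rfl
    rcases hx with ⟨a, b, c⟩ | ⟨a, b, c⟩
    · exact Or.inl ⟨Perm.inv_eq_iff_eq.2 a.symm, Perm.inv_eq_iff_eq.2 b.symm,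
        fun t => ⟨e (c t).1, e (c t).2⟩⟩
    · exact Or.inr ⟨Perm.inv_eq_iff_eq.2 b.symm, Perm.inv_eq_iff_eq.2 a.symm,
        fun t => ⟨e (c t).2, e (c t).1⟩⟩

theorem act_fix {σ : alternatingGroup (Fin (k + 4))} (h0 : σ.1 0 = 0) (h1 : σ.1 1 = 1) (t : F) :
    S.act σ (S.φ (e3 0 1 t)) = S.φ (e3 0 1 t) := by
  have h : σ.1 ∈ stabGen k := mem_stabGen σ.2 h0 h1
  have e : stabGen k = (Subgroup.closure {(flipAlt : alternatingGroup (Fin (k + 4))), cycAlt}).map
      (alternatingGroup (Fin (k + 4))).subtype := by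
    rw [MonoidHom.map_closure, Set.image_pair]; rfl
  rw [e, Subgroup.mem_map] at h
  obtain ⟨τ, hτ, hτσ⟩ := h
  obtain rfl : τ = σ := Subtype.ext hτσ
  rcases S.stab hτ with ⟨-, -, h⟩ | ⟨a, -, -⟩
  · exact (h t).1
  · exact absurd (h0.symm.trans a) zero_ne_one'

/-- The root map of a pair of indices. -/
noncomputable def x (i j : Fin (k + 4)) (t : F) : G :=
  if h : i ≠ j then S.act (exists_even_pair h).choose (S.φ (e3 0 1 t)) else 1

theorem x_eq (σ : alternatingGroup (Fin (k + 4))) (t : F) :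
    S.x (σ.1 0) (σ.1 1) t = S.act σ (S.φ (e3 0 1 t)) := by
  have h : σ.1 0 ≠ σ.1 1 := fun e => zero_ne_one' (σ.1.injective e)
  rw [x, dif_pos h]
  obtain ⟨a, b⟩ := (exists_even_pair h).choose_spec
  set τ := (exists_even_pair h).choose
  rw [show τ = σ * (σ⁻¹ * τ) by group, act_mul,
    S.act_fix (σ := σ⁻¹ * τ) (Perm.inv_eq_iff_eq.2 a) (Perm.inv_eq_iff_eq.2 b)]

theorem act_x (π : alternatingGroup (Fin (k + 4))) {i j : Fin (k + 4)} (h : i ≠ j) (t : F) :
    S.act π (S.x i j t) = S.x (π.1 i) (π.1 j) t := by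
  obtain ⟨σ, rfl, rfl⟩ := exists_even_pair h
  rw [x_eq, ← act_mul, ← x_eq]; rfl

theorem φ_e3 {a b : Fin 3} (h : a ≠ b) (t : F) : S.φ (e3 a b t) = S.x (pt a) (pt b) t := by
  have h01 : S.φ (e3 0 1 t) = S.x (pt 0) (pt 1) t := by
    have := S.x_eq 1 t
    rw [show S.act 1 = 1 from map_one _] at this
    rw [pt_zero, pt_one]; exact this.symm
  have h10 : S.φ (e3 1 0 t) = S.x (pt 1) (pt 0) t := by
    have := S.x_eq flipAlt t
    rw [show S.act flipAlt (S.φ (e3 0 1 t)) = S.φ (e3 1 0 t) from (S.flip t).1] at this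
    rw [← this, pt_one, pt_zero]
    simp [flipAlt, swap_apply_of_ne_of_ne zero_ne_two' zero_ne_three',
      swap_apply_of_ne_of_ne one_ne_two' one_ne_three']
  have next' : ∀ {a b : Fin 3}, a ≠ b → S.φ (e3 a b t) = S.x (pt a) (pt b) t →
      S.φ (e3 (a + 1) (b + 1) t) = S.x (pt (a + 1)) (pt (b + 1)) t := fun {a b} h e => by
    rw [← S.rot, e, ← act_apply, act_x _ _ (pt_ne h), c012_pt, c012_pt]
  fin_cases a <;> fin_cases b
  all_goals first
    | exact absurd rfl h
    | exact h01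
    | exact h10
    | exact next' (by decide) h01
    | exact next' (by decide) h10
    | exact next' (by decide) (next' (by decide) h01)
    | exact next' (by decide) (next' (by decide) h10)

theorem exists_frame {i j l : Fin (k + 4)} (hij : i ≠ j) (hil : i ≠ l) (hjl : j ≠ l) :
    ∃ (a b c : Fin 3) (σ : alternatingGroup (Fin (k + 4))), a ≠ b ∧ a ≠ c ∧ b ≠ c ∧
      σ.1 (pt a) = i ∧ σ.1 (pt b) = j ∧ σ.1 (pt c) = l := by
  obtain ⟨σ, a, b, h, h1, h2, h3⟩ := exists_even_triple hij hil hjl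
  rcases h with ⟨rfl, rfl⟩ | ⟨rfl, rfl⟩
  · exact ⟨0, 1, 2, σ, by decide, by decide, by decide, by rw [pt_zero]; exact h1, by rw [pt_one]; exact h2,
      by rw [pt_two]; exact h3⟩
  · exact ⟨1, 0, 2, σ, by decide, by decide, by decide, by rw [pt_one]; exact h1, by rw [pt_zero]; exact h2,
      by rw [pt_two]; exact h3⟩

/-- `SL₃(F)` moved to the image of the first three points. -/
def emb3 (σ : alternatingGroup (Fin (k + 4))) : SL(3, F) →* G := (S.act σ).toMonoidHom.comp S.φ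

theorem emb3_e3 (σ : alternatingGroup (Fin (k + 4))) {a b : Fin 3} (h : a ≠ b) (t : F) :
    S.emb3 σ (e3 a b t) = S.x (σ.1 (pt a)) (σ.1 (pt b)) t := by
  show S.act σ (S.φ (e3 a b t)) = _
  rw [φ_e3 S h, act_x _ _ (pt_ne h)]

theorem x_add {i j : Fin (k + 4)} (h : i ≠ j) (t u : F) : S.x i j (t + u) = S.x i j t * S.x i j u := by
  obtain ⟨σ, rfl, rfl⟩ := exists_even_pair h
  rw [x_eq, x_eq, x_eq, ← map_mul, ← map_mul, e3_add (by decide : (0 : Fin 3) ≠ 1)]

theorem x_zero {i j : Fin (k + 4)} (h : i ≠ j) : S.x i j 0 = 1 := by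
  have := S.x_add h 0 0
  rw [add_zero] at this
  exact left_eq_mul.1 this

theorem x_neg {i j : Fin (k + 4)} (h : i ≠ j) (t : F) : S.x i j (-t) = (S.x i j t)⁻¹ :=
  eq_inv_of_mul_eq_one_left (by rw [← S.x_add h, neg_add_cancel, S.x_zero h])

theorem x_chev {i j l : Fin (k + 4)} (hij : i ≠ j) (hjl : j ≠ l) (hil : i ≠ l) (t u : F) :
    ⁅S.x i j t, S.x j l u⁆ = S.x i l (t * u) := by
  obtain ⟨a, b, c, σ, hab, hac, hbc, rfl, rfl, rfl⟩ := exists_frame hij hil hjl
  rw [← emb3_e3 S σ hab, ← emb3_e3 S σ hbc, ← emb3_e3 S σ hac, ← map_commutatorElement, e3_chev hab hbc hac]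

theorem x_row {i j l : Fin (k + 4)} (hij : i ≠ j) (hil : i ≠ l) (t u : F) :
    Commute (S.x i j t) (S.x i l u) := by
  rcases eq_or_ne j l with rfl | hjl
  · show _ * _ = _ * _
    rw [← S.x_add hij, ← S.x_add hij, add_comm]
  obtain ⟨a, b, c, σ, hab, hac, hbc, rfl, rfl, rfl⟩ := exists_frame hij hil hjl
  rw [← emb3_e3 S σ hab, ← emb3_e3 S σ hac]
  exact (e3_comm hab hac hac hab.symm t u).map (S.emb3 σ)

theorem x_col {i j l : Fin (k + 4)} (hil : i ≠ l) (hjl : j ≠ l) (t u : F) :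
    Commute (S.x i l t) (S.x j l u) := by
  rcases eq_or_ne i j with rfl | hij
  · exact S.x_row hil hil t u
  obtain ⟨a, b, c, σ, hab, hac, hbc, rfl, rfl, rfl⟩ := exists_frame hij hil hjl
  rw [← emb3_e3 S σ hac, ← emb3_e3 S σ hbc]
  exact (e3_comm hac hbc hac hbc.symm t u).map (S.emb3 σ)

/-- A diagonal element scaling a row and a column. -/
noncomputable def diag (i l : Fin (k + 4)) (s : F) : G :=
  S.x i l s * S.x l i (-s⁻¹) * S.x i l s * S.x i l (-1) * S.x l i 1 * S.x i l (-1)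

theorem diag_scale {i j l : Fin (k + 4)} (hij : i ≠ j) (hil : i ≠ l) (hjl : j ≠ l) {s : F} (hs : s ≠ 0)
    (t : F) :
    S.diag i l s * S.x i j t * (S.diag i l s)⁻¹ = S.x i j (s * t) ∧
      S.diag i l s * S.x j l t * (S.diag i l s)⁻¹ = S.x j l (s * t) := by
  obtain ⟨a, b, c, σ, hab, hac, hbc, rfl, rfl, rfl⟩ := exists_frame hij hil hjl
  have e : S.diag (σ.1 (pt a)) (σ.1 (pt c)) s = S.emb3 σ (Matrix.SpecialLinearGroup.diag2n hac s hs) := by
    rw [ClassicalLinear.diag2n_eq_prod]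
    simp only [← e3_eq hac, ← e3_eq hac.symm, map_mul, emb3_e3 S σ hac, emb3_e3 S σ hac.symm]
    rfl
  obtain ⟨h1, h2⟩ := e3_scale hac hab.symm hbc s hs t
  rw [e, ← emb3_e3 S σ hab, ← emb3_e3 S σ hab, ← emb3_e3 S σ hbc, ← emb3_e3 S σ hbc, ← map_inv, ← map_mul,
    ← map_mul, ← map_mul, ← map_mul, h1, h2]
  exact ⟨rfl, rfl⟩

theorem shift {i j l m : Fin (k + 4)} (hij : i ≠ j) (hil : i ≠ l) (him : i ≠ m) (hjl : j ≠ l) (_hjm : j ≠ m)
    (hlm : l ≠ m) (a u v : F) :
    Commute (S.x i j a) (S.x l m (u * v)) ↔ Commute (S.x l j (-(u * a))) (S.x i m v) := by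
  have hc := S.x_chev hil.symm him hlm u v
  have hA : S.x i j a * S.x l i u * (S.x i j a)⁻¹ = S.x l j (-(u * a)) * S.x l i u := by
    have h := S.x_chev hil.symm hij hjl.symm u a
    rw [S.x_neg hjl.symm, ← h, commutatorElement_def]; group
  have hB : S.x i j a * S.x i m v * (S.x i j a)⁻¹ = S.x i m v := by
    rw [(S.x_row hij him a v).eq, mul_inv_cancel_right]
  have key : S.x i j a * S.x l m (u * v) * (S.x i j a)⁻¹ =
      S.x l m (u * v) * ⁅S.x l j (-(u * a)), S.x i m v⁆ := by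
    rw [← hc, show S.x i j a * ⁅S.x l i u, S.x i m v⁆ * (S.x i j a)⁻¹ =
      ⁅S.x i j a * S.x l i u * (S.x i j a)⁻¹, S.x i j a * S.x i m v * (S.x i j a)⁻¹⁆ by
        simp only [commutatorElement_def]; group, hA, hB]
    have h2 := (S.x_row hjl.symm hlm (-(u * a)) (u * v)).eq
    rw [← hc] at h2
    generalize S.x l j (-(u * a)) = A at h2 ⊢
    generalize S.x l i u = B at h2 ⊢
    generalize S.x i m v = C at h2 ⊢
    calc ⁅A * B, C⁆ = A * ⁅B, C⁆ * A⁻¹ * ⁅A, C⁆ := by simp only [commutatorElement_def]; group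
      _ = _ := by rw [h2, mul_inv_cancel_right]
  rw [← commutatorElement_eq_one_iff_commute (g₁ := S.x l j (-(u * a)))]
  constructor
  · intro h
    rw [h.eq, mul_inv_cancel_right] at key
    exact left_eq_mul.1 key
  · intro h
    rw [h, mul_one] at key
    exact mul_inv_eq_iff_eq_mul.1 key

theorem scale {i j l m : Fin (k + 4)} (hij : i ≠ j) (hil : i ≠ l) (him : i ≠ m) (hjm : j ≠ m)
    (hlm : l ≠ m) {s : F} (hs : s ≠ 0) {a b : F} (h : Commute (S.x i j a) (S.x l m b)) :
    Commute (S.x i j (s * a)) (S.x l m (s * b)) := by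
  rw [← (S.diag_scale hij him hjm hs a).1, ← (S.diag_scale hil him hlm hs b).2]
  exact SL3Pres.Setup.conj_commute h

theorem x_disjoint_base (a b : F) :
    Commute (S.x 0 1 a) (S.x 2 3 b) ∧ Commute (S.x 2 1 a) (S.x 0 3 b) := by
  have h0 : Commute (S.x 0 1 1) (S.x 2 3 1) := by
    have e : S.x 0 1 1 = S.φ (e3 0 1 1) := by rw [φ_e3 S (by decide), pt_zero, pt_one]
    have e' : S.x 2 3 1 = S.act sigma0 (S.φ (e3 0 1 1)) := by
      rw [← e, act_x _ _ zero_ne_one', sigma0_zero, sigma0_one]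
    rw [e', e]; exact S.disj
  have hsq : ∀ s : F, Commute (S.x 2 1 (-(s * s))) (S.x 0 3 1) := fun s => by
    rcases eq_or_ne s 0 with rfl | hs
    · rw [mul_zero, neg_zero, S.x_zero (Ne.symm one_ne_two')]; exact Commute.one_left _
    have h := S.scale zero_ne_one' zero_ne_two' zero_ne_three' one_ne_three' two_ne_three' hs h0
    exact (S.shift zero_ne_one' zero_ne_two' zero_ne_three' one_ne_two' one_ne_three' two_ne_three' _ s 1).1
      (by simpa using h)
  obtain ⟨ω, hω⟩ := IsCyclic.exists_generator (α := Fˣ)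
  have hall : ∀ a, Commute (S.x 2 1 a) (S.x 0 3 1) := by
    let A : AddSubmonoid F :=
      { carrier := {a | ∀ s : F, Commute (S.x 2 1 (-(s * s * a))) (S.x 0 3 1)}
        zero_mem' := fun s => by
          rw [mul_zero, neg_zero, S.x_zero (Ne.symm one_ne_two')]; exact Commute.one_left _
        add_mem' := fun {a b} ha hb s => by
          rw [mul_add, neg_add, S.x_add (Ne.symm one_ne_two')]; exact (ha s).mul_left (hb s) }
    intro a
    have h := SL3Pres.mem_of_sq_closed hω A (fun s => by rw [mul_one]; exact hsq s)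
      (fun a ha s => by
        have := ha (s * (ω : F))
        rwa [show s * (ω : F) * (s * ω) * a = s * s * ((ω : F) ^ 2 * a) by ring] at this) (-a) 1
    simpa using h
  have h2 : ∀ a b, Commute (S.x 2 1 a) (S.x 0 3 b) := fun a b => by
    rcases eq_or_ne b 0 with rfl | hb
    · rw [S.x_zero zero_ne_three']; exact Commute.one_right _
    have h := S.scale (Ne.symm one_ne_two') (Ne.symm zero_ne_two') two_ne_three' one_ne_three' zero_ne_three' hb
      (hall (b⁻¹ * a))
    rwa [mul_one, mul_inv_cancel_left₀ hb] at h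
  refine ⟨?_, h2 a b⟩
  have h := (S.shift (Ne.symm one_ne_two') (Ne.symm zero_ne_two') two_ne_three' (Ne.symm zero_ne_one')
    one_ne_three' zero_ne_three' (-a) 1 b).1 (h2 _ _)
  simpa using h

theorem x_disjoint {i j l m : Fin (k + 4)} (hij : i ≠ j) (hil : i ≠ l) (him : i ≠ m) (hjl : j ≠ l)
    (hjm : j ≠ m) (hlm : l ≠ m) (a b : F) : Commute (S.x i j a) (S.x l m b) := by
  obtain ⟨σ, p, q, h, rfl, rfl, rfl, rfl⟩ := exists_even_quad hij hil him hjl hjm hlm
  rcases h with ⟨rfl, rfl⟩ | ⟨rfl, rfl⟩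
  · rw [← S.act_x σ zero_ne_one', ← S.act_x σ two_ne_three']
    exact (S.x_disjoint_base a b).1.map (S.act σ)
  · rw [← S.act_x σ (Ne.symm one_ne_two'), ← S.act_x σ zero_ne_three']
    exact (S.x_disjoint_base a b).2.map (S.act σ)

theorem stRel : KnownSimple.SteinbergA.StRel (S.x) := by
  refine ⟨fun i j t u h => (S.x_add h t u).symm, fun i j l m t u hij hlm him hjl => ?_,
    fun i j l t u hij hjl hil => ?_, fun i j => ?_⟩
  · rcases eq_or_ne i l with rfl | hil
    · exact (S.x_row hij hlm t u).eq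
    rcases eq_or_ne j m with rfl | hjm
    · exact (S.x_col hij hlm t u).eq
    exact (S.x_disjoint hij hil him hjl hjm hlm t u).eq
  · rw [← S.x_chev hij hjl hil, commutatorElement_def]; group
  · obtain ⟨l, hl⟩ := exists_fresh {i, j} (lt_of_le_of_lt Finset.card_le_two (by omega))
    simp only [Finset.mem_insert, Finset.mem_singleton, not_or] at hl
    exact ⟨l, hl.1, hl.2⟩

theorem closure_eq_top (hgen : S.φ.range ⊔ S.ρ.range = ⊤) :
    Subgroup.closure {g | ∃ i j t, i ≠ j ∧ g = S.x i j t} = ⊤ := by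
  set N := Subgroup.closure {g | ∃ i j t, i ≠ j ∧ g = S.x i j t} with hN
  have hφ : S.φ.range ≤ N := by
    rintro _ ⟨z, rfl⟩
    have h : N.comap S.φ = ⊤ := ClassicalLinear.eq_top_of_transvection_mem fun a b hab t => by
      show S.φ (Matrix.SpecialLinearGroup.transvection hab t) ∈ N
      rw [← e3_eq hab, φ_e3 S hab]
      exact Subgroup.subset_closure ⟨_, _, t, pt_ne hab, rfl⟩
    exact (h ▸ Subgroup.mem_top z : z ∈ N.comap S.φ)
  have hconj : ∀ σ g, g ∈ N → S.act σ g ∈ N := fun σ g hg => by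
    have h : N ≤ N.comap (S.act σ).toMonoidHom := (Subgroup.closure_le _).2 (by
      rintro _ ⟨i, j, t, hij, rfl⟩
      show S.act σ (S.x i j t) ∈ N
      rw [act_x _ _ hij]
      exact Subgroup.subset_closure ⟨_, _, t, fun e => hij (σ.1.injective e), rfl⟩)
    exact h hg
  have : (N.comap S.ρ).Normal := ⟨fun a ha σ => by
    show S.ρ (σ * a * σ⁻¹) ∈ N
    rw [map_mul, map_mul, map_inv]; exact hconj σ _ ha⟩
  have hρ : S.ρ.range ≤ N := by
    rintro _ ⟨σ, rfl⟩
    exact (eq_top_of_cyc3_mem (N := N.comap S.ρ) (hφ S.c_mem) ▸ Subgroup.mem_top σ : σ ∈ N.comap S.ρ)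
  exact eq_top_iff.2 (hgen ▸ sup_le hφ hρ)

theorem glBound_eq (q m : ℕ) : KnownSimple.SteinbergA.glBound q m =
    q ^ (m * (m - 1) / 2) * ∏ i ∈ Finset.range m, (q ^ (i + 1) - 1) := by
  induction m with
  | zero => simp [KnownSimple.SteinbergA.glBound]
  | succ m ih =>
    have h2 : (m + 1) * (m + 1 - 1) / 2 = m + m * (m - 1) / 2 := by
      rcases m with _ | k
      · simp
      · simp only [Nat.add_sub_cancel]
        rw [show (k + 1 + 1) * (k + 1) = (k + 1) * k + (k + 1) * 2 by ring,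
          Nat.add_mul_div_right _ _ two_pos]
        ring
    rw [KnownSimple.SteinbergA.glBound, ih, Finset.prod_range_succ, h2, pow_add]
    ring

theorem finite_and_card_le (hgen : S.φ.range ⊔ S.ρ.range = ⊤) :
    Finite G ∧ Nat.card G ≤ Nat.card SL(k + 4, F) := by
  classical
  have := Fintype.ofFinite F
  obtain ⟨⟨N, hN, hNle⟩, -⟩ := KnownSimple.SteinbergA.sub_small S.stRel (k + 3) Finset.univ
    (by rw [Finset.card_univ, Fintype.card_fin])
  have htop : KnownSimple.SteinbergA.sub S.x (Finset.univ : Finset (Fin (k + 4))) = ⊤ := by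
    rw [eq_top_iff, ← S.closure_eq_top hgen]
    refine Subgroup.closure_mono ?_
    rintro _ ⟨i, j, t, hij, rfl⟩
    exact ⟨i, j, t, Finset.mem_univ _, Finset.mem_univ _, hij, rfl⟩
  rw [htop, Subgroup.coe_top] at hN
  have hfin : Finite G := Set.finite_univ_iff.1 hN.1
  have hcard : Nat.card G ≤ N := by rw [← Set.ncard_univ]; exact hN.2
  refine ⟨hfin, ?_⟩
  have hq : 0 < Nat.card F - 1 := Nat.sub_pos_of_lt Finite.one_lt_card
  refine Nat.le_of_mul_le_mul_right (le_trans (Nat.mul_le_mul_right _ hcard) (hNle.trans ?_)) hq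
  rw [glBound_eq, Nat.card_eq_fintype_card (α := F)]
  have h := ClassicalLinear.card_GL_eq_pow_mul (ι := Fin (k + 4)) (F := F)
  rw [ClassicalLinear.card_GL_eq_card_SL_mul, ClassicalLinear.card_units, Fintype.card_fin] at h
  rw [h]

end Setup

end CfsgLib.SLnPres
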